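import Cfsg.Agent.H36.E7MSpec
import Cfsg.Agent.S2154

/-! E7MAX (S5934), slot `BT`: the Borel–Tits theorem in `E₇(2)`. -/

set_option autoImplicit false

namespace H1.E7MBT
open Cfsg.Lie H63 H64 H65

theorem bt {F : Type*} [Field F] [Fintype F] (p : ℕ) [Fact p.Prime] [CharP F p] (D : ChevalleyDatum)
    (hD : D ∈ [chevG2, chevB2, chevD4, chevF4, chevE6, chevE7, chevE8])
    (R : Subgroup (D.group F)) (hR : IsPGroup p R) (h0 : R ≠ ⊥) :
    ∃ g : D.group F, ∃ H : Subgroup (D.group F), H ≠ ⊤ ∧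
      (∀ a : D.group F, a.1 ∈ D.posUnipotent F → g * a * g⁻¹ ∈ H) ∧
      Subgroup.normalizer (R : Set (D.group F)) ≤ H := by
  obtain ⟨g, hg, J, ⟨i, hi, hJ⟩, h1, -⟩ := Cfsg.Agent.S2154.result p D hD
    (R.map (D.group F).subtype) (Subgroup.map_subtype_le R) (hR.map _)
    (by rwa [Ne, Subgroup.map_eq_bot_iff_of_injective _ (D.group F).subtype_injective])
  refine ⟨⟨g, hg⟩, ((D.parabolicSubgroup F J).map (MulAut.conj g).toMonoidHom).subgroupOf _,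
    fun e => ?_, fun a ha => ⟨a.1, ?_, rfl⟩, fun n hn => h1 ⟨?_, n.2⟩⟩
  · obtain ⟨_, _, h⟩ := matOK_of_mem hD F
    have k : h.T.n ⟨i, hi⟩ ∈ D.group F :=
      h.G_eq ▸ h.T.PJ_le_Gp Set.univ (h.T.n_mem_PJ (Set.mem_univ _))
    obtain ⟨b, hb, e'⟩ := Subgroup.subgroupOf_eq_top.1 e (mul_mem (mul_mem hg k) (inv_mem hg))
    obtain rfl : b = h.T.n ⟨i, hi⟩ := (MulAut.conj g).injective e'
    rw [h.P_eq] at hb
    exact hJ (h.T.n_mem_PJ_iff.1 hb)
  · exact Subgroup.mem_sup_left (Subgroup.mem_sup_left ha)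
  · exact Subgroup.le_normalizer_map _ ⟨n, hn, rfl⟩

open H36.E7M

theorem pos : ∀ r < 126, 93 ≤ r → chevE7.IsPosRoot r := by decide +kernel

theorem jobBT : JobBT := fun R hR h0 => by
  obtain ⟨g, H, h1, h2, h3⟩ := bt 2 chevE7 (by simp) R hR h0
  refine ⟨g, H, h1, ?_, h3⟩
  rw [cS, Subgroup.map_le_iff_le_comap, H36.E7M.Q, Subgroup.closure_le]
  rintro _ ⟨r, k1, k2, rfl⟩
  have k : (x r).1 ∈ chevE7.posUnipotent F := Subgroup.subset_closure ⟨r, 1, pos r k2 k1, x_val r⟩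
  rw [SetLike.mem_coe, Subgroup.mem_comap, MulEquiv.coe_toMonoidHom, MulAut.conj_apply]
  exact h2 _ k

end H1.E7MBT
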