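import Cfsg.Agent.H40.E82Spec

/-! Tower E82 (S5915), slot `A`: the operators `A r` and `E`. -/

set_option autoImplicit false
set_option linter.unusedSectionVars false

namespace H1.E82A

open Matrix Module H56.SL2M H40.E82 Finset
open scoped MatrixGroups Classical

universe u

theorem choose_par : ∀ r < 64, ∀ s < 64,
    (r + s).factorial / (s.factorial * r.factorial) % 2 = if r &&& s = 0 then 1 else 0 := by
  decide +kernel

theorem choose_cast {k : Type} [Field k] [CharP k 2] {r s : ℕ} (hr : r < 64) (hs : s < 64) :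
    ((r + s).choose r : k) = if r &&& s = 0 then 1 else 0 := by
  rw [CharP.cast_eq_mod k 2, add_comm, Nat.add_choose, add_comm s, choose_par r hr s hs]
  split_ifs <;> simp

section F2

variable {F : Type u} [Field F] [CharP F 2]

theorem ww_ww : (ww * ww : SL(2, F)) = 1 := by
  ext i j; fin_cases i <;> fin_cases j <;> simp [ww_coe, CharTwo.neg_eq]

theorem inv_coe (t c : F) :
    (xx t * ww * xx c * ww * xx t : SL(2, F)).1 = !![1 + t * c, t * t * c; c, 1 + t * c] := by
  ext i j; fin_cases i <;> fin_cases j <;> simp [xx_coe, ww_coe] <;> grind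

theorem sq_iff (g : SL(2, F)) : g * g = 1 ↔ g 0 0 = g 1 1 := by
  rw [mul_eq_one_iff_eq_inv, SpecialLinearGroup.SL2_inv_expl]
  refine ⟨fun h => by simpa using congrArg (fun x : SL(2, F) => x 0 0) h, fun h => ?_⟩
  ext i j; fin_cases i <;> fin_cases j <;> simp [h, CharTwo.neg_eq]

theorem det2 (g : SL(2, F)) : g 0 0 * g 1 1 - g 0 1 * g 1 0 = 1 := by
  have := g.2; rwa [det_fin_two] at this

variable [Fintype F]

theorem geom (t a : F) : (if a = 0 then 1 else 0) +
    ∑ r ∈ range (Fintype.card F - 1), t ^ (r + 1) * a ^ (Fintype.card F - 1 - (r + 1)) =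
      if a = t then 1 else 0 := by
  have hq : Fintype.card F = Fintype.card F - 1 + 1 := by have := Fintype.card_pos (α := F); omega
  have h1 : ∑ r ∈ range (Fintype.card F), t ^ r * a ^ (Fintype.card F - 1 - r) =
      if a = t then 0 else 1 := by
    split_ifs with h
    · rw [h, geom_sum₂_self]; simp
    · have := (Commute.all t a).geom_sum₂_mul (Fintype.card F)
      rw [FiniteField.pow_card, FiniteField.pow_card] at this
      exact mul_right_cancel₀ (sub_ne_zero.2 (Ne.symm h)) (this.trans (one_mul _).symm)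
  nth_rewrite 1 [hq] at h1
  rw [sum_range_succ', pow_zero, one_mul, Nat.sub_zero] at h1
  have h2 : a ^ (Fintype.card F - 1) = if a = 0 then 0 else 1 := by
    split_ifs with h
    · rw [h, zero_pow (by have := Fintype.one_lt_card (α := F); omega)]
    · exact FiniteField.pow_card_sub_one_eq_one a h
  rw [h2] at h1
  rw [eq_sub_of_add_eq h1]
  split_ifs <;> grind

end F2

variable {F : Type u} [Field F] [Fintype F] {k V : Type} [Field k] [CharP k 2]
  [AddCommGroup V] [Module k V] (ι : F →+* k) (ρ : Representation k SL(2, F) V)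

theorem A_big {r : ℕ} (h : Fintype.card F ≤ r) : A ι ρ r = 0 := by
  have := Fintype.card_pos (α := F)
  rw [A, if_neg (by omega), if_neg (by omega)]

theorem expand (t : F) : ρ (xx t) = ∑ r ∈ range (Fintype.card F), ι t ^ r • A ι ρ r := by
  have := RingHom.charP ι ι.injective 2
  have hq : Fintype.card F = Fintype.card F - 1 + 1 := by have := Fintype.card_pos (α := F); omega
  nth_rewrite 1 [hq]
  rw [sum_range_succ', sum_congr rfl (g := fun r => ∑ a : F,
    ι (t ^ (r + 1) * a ^ (Fintype.card F - 1 - (r + 1))) • ρ (xx a)) fun r hr => by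
      rw [A, if_neg (by omega), if_pos (by have := mem_range.1 hr; omega), smul_sum]
      simp only [smul_smul, map_mul, map_pow], sum_comm]
  have e1 : ι t ^ 0 • A ι ρ 0 = ∑ a : F, ι (if a = 0 then 1 else 0) • ρ (xx a) := by
    simp [A, apply_ite ι, ite_smul, xx_zero]
  have e2 : ρ (xx t) = ∑ a : F, ι (if a = t then 1 else 0) • ρ (xx a) := by
    simp [apply_ite ι, ite_smul]
  rw [e1, e2, ← sum_add_distrib]
  refine sum_congr rfl fun a _ => ?_
  rw [← sum_smul, ← map_sum, ← add_smul, ← map_add, add_comm, geom]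

theorem uniq {M : Type} [AddCommGroup M] [Module k M] {v w : ℕ → M}
    (h : ∀ t : F, ∑ r ∈ range (Fintype.card F), ι t ^ r • v r =
      ∑ r ∈ range (Fintype.card F), ι t ^ r • w r) {r : ℕ} (hr : r < Fintype.card F) : v r = w r := by
  have := mem_of_sum_mem ι (⊥ : Submodule k M) (j := Fintype.card F - 1) (by omega)
    (fun r => v r - w r) (fun t => by
      rw [Nat.sub_add_cancel (by omega)]
      simp only [smul_sub, sum_sub_distrib, h t, sub_self, Submodule.zero_mem]) (m := r) (by omega)
  exact sub_eq_zero.1 this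

theorem A_mul {r s : ℕ} (hr : r < Fintype.card F) (hs : s < Fintype.card F) :
    A ι ρ r * A ι ρ s = ((r + s).choose r : k) • A ι ρ (r + s) := by
  refine uniq ι (v := fun s => A ι ρ r * A ι ρ s)
    (w := fun s => ((r + s).choose r : k) • A ι ρ (r + s)) (fun u => ?_) hs
  refine uniq ι (v := fun r => ∑ s ∈ range (Fintype.card F), ι u ^ s • (A ι ρ r * A ι ρ s))
    (w := fun r => ∑ s ∈ range (Fintype.card F), ι u ^ s • ((r + s).choose r : k) • A ι ρ (r + s))
    (fun t => ?_) hr
  have e1 := sum_range_diag_flip (Fintype.card F) fun r s =>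
    ι t ^ r • ι u ^ s • ((r + s).choose r : k) • A ι ρ (r + s)
  calc _ = ρ (xx t) * ρ (xx u) := by
        rw [expand ι ρ t, expand ι ρ u, sum_mul]
        simp only [mul_sum, smul_sum, smul_mul_assoc, mul_smul_comm, smul_comm (ι u ^ _) (ι t ^ _)]
    _ = ∑ m ∈ range (Fintype.card F), ι (t + u) ^ m • A ι ρ m := by
        rw [← map_mul, ← xx_add, expand ι]
    _ = _ := by
        refine (sum_congr rfl fun m _ => ?_).trans (e1.trans (sum_congr rfl fun r _ => ?_))
        · rw [map_add, add_pow, sum_smul]
          refine sum_congr rfl fun r hr => ?_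
          rw [Nat.add_sub_cancel' (Nat.lt_succ_iff.1 (mem_range.1 hr)), mul_smul, mul_smul]
        · rw [smul_sum]
          refine sum_subset (range_subset_range.2 (Nat.sub_le _ _)) fun s _ hs => ?_
          rw [A_big ι ρ (by rw [mem_range] at hs; omega)]
          simp

theorem A_top : A ι ρ (Fintype.card F - 1) = ∑ a : F, ρ (xx a) := by
  have := Fintype.one_lt_card (α := F)
  rw [A, if_neg (by omega), if_pos (by omega)]
  simp

theorem E_eq : E ρ = A ι ρ (Fintype.card F - 1) +
    ∑ t : F, ρ (xx t) * ρ ww * A ι ρ (Fintype.card F - 1) * ρ ww * ρ (xx t) := by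
  have := RingHom.charP ι ι.injective 2
  rw [A_top, E, ← sum_filter_add_sum_filter_not _ (fun g : SL(2, F) => g 1 0 = 0)]
  congr 1
  · symm
    refine sum_bij (fun a _ => xx a) (fun a _ => ?_) (fun a _ b _ e => ?_) (fun g hg => ?_)
      fun _ _ => rfl
    · simp [sq_iff, xx_coe]
    · simpa [xx_coe] using congrArg (fun x : SL(2, F) => x 0 1) e
    · simp only [mem_filter, mem_univ, true_and, sq_iff] at hg
      have h1 := det2 g
      rw [hg.1, hg.2] at h1
      have h2 : g 1 1 = 1 := by
        have : (g 1 1 + 1) ^ 2 = 0 := by grind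
        have := pow_eq_zero_iff (two_ne_zero) |>.1 this
        grind
      refine ⟨g 0 1, mem_univ _, ?_⟩
      ext i j; fin_cases i <;> fin_cases j <;> simp [xx_coe, hg.1, hg.2, h2]
  · simp only [mul_sum, sum_mul, ← map_mul]
    rw [← sum_product', ← sum_filter_add_sum_filter_not _ (fun p : F × F => p.2 = 0)]
    have e0 : ∑ p ∈ (univ ×ˢ univ).filter fun p : F × F => p.2 = 0,
        ρ (xx p.1 * ww * xx p.2 * ww * xx p.1) = 0 := by
      rw [sum_filter, sum_product]
      have : ∀ t : F, (xx t * ww * xx 0 * ww * xx t : SL(2, F)) = 1 := fun t =>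
        Subtype.ext (by rw [inv_coe]; simp [one_fin_two])
      simp only [sum_ite_eq', mem_univ, if_true, this, sum_const, card_univ]
      rw [← Nat.cast_smul_eq_nsmul k, ← map_natCast ι, FiniteField.cast_card_eq_zero, map_zero,
        zero_smul]
    rw [e0, zero_add]
    symm
    refine sum_bij (fun p _ => xx p.1 * ww * xx p.2 * ww * xx p.1) (fun p hp => ?_)
      (fun p hp p' _ e => ?_) (fun g hg => ?_) fun _ _ => rfl
    · simp only [mem_filter, mem_univ, true_and, sq_iff, inv_coe] at hp ⊢
      simpa using hp.2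
    · have e1 := congrArg (fun x : SL(2, F) => x 1 0) e
      have e2 := congrArg (fun x : SL(2, F) => x 0 0) e
      simp only [inv_coe] at e1 e2
      simp only [mem_filter] at hp
      have e3 : p.2 = p'.2 := by simpa using e1
      have e4 : p.1 * p.2 = p'.1 * p'.2 := by simpa using e2
      exact Prod.ext (mul_right_cancel₀ hp.2 (e4.trans (by rw [e3]))) e3
    · simp only [mem_filter, mem_univ, true_and, sq_iff] at hg
      have h1 := det2 g
      rw [hg.1] at h1
      refine ⟨((g 1 1 + 1) / g 1 0, g 1 0), by simpa using hg.2, Subtype.ext ?_⟩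
      have h0 := hg.2
      rw [inv_coe]
      ext i j; fin_cases i <;> fin_cases j <;> simp [hg.1] <;> grind

theorem jobA : JobA.{u} := by
  intro F _ _ k V _ _ _ _ ι ρ h64
  have := RingHom.charP ι ι.injective 2
  refine ⟨expand ι ρ, fun r s => ?_, fun s r => ?_, A_top ι ρ, E_eq ι ρ, fun g => ?_, ww_ww,
    fun W hW r v hv => ?_⟩
  · by_cases hr : r < Fintype.card F
    · by_cases hs : s < Fintype.card F
      · rw [A_mul ι ρ hr hs, choose_cast (by omega) (by omega)]
        split_ifs <;> simp
      · rw [A_big ι ρ (r := s) (by omega), A_big ι ρ (r := r + s) (by omega)]; simp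
    · rw [A_big ι ρ (r := r) (by omega), A_big ι ρ (r := r + s) (by omega)]; simp
  · by_cases hr : r < Fintype.card F
    · refine uniq ι (v := fun r => ρ (hh s) * A ι ρ r)
        (w := fun r => ι s ^ (2 * r) • (A ι ρ r * ρ (hh s))) (fun t => ?_) hr
      have e := congrArg ρ (hh_xx s t)
      rw [map_mul, map_mul, expand ι ρ t, expand ι ρ, mul_sum, sum_mul] at e
      simp only [mul_smul_comm, smul_mul_assoc] at e
      rw [e]
      refine sum_congr rfl fun r _ => ?_
      rw [smul_smul, map_mul, map_mul, pow_mul, sq, ← mul_pow, mul_comm (ι t)]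
    · rw [A_big ι ρ (by omega)]; simp
  · rw [E, mul_sum, sum_mul]
    refine sum_equiv (MulAut.conj g).toEquiv (fun x => ?_) fun x _ => ?_
    · simp
    · simp [← map_mul]
  · rw [A]
    split_ifs
    · exact hv
    · rw [LinearMap.sum_apply]
      exact W.sum_mem fun a _ => W.smul_mem _ (hW _ v hv)
    · exact W.zero_mem

end H1.E82A
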