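import Cfsg.Agent.H11.E8Spec

/-! STDO8 tower: the classes of the elements of `W(E8)` with square `±1`. -/

set_option autoImplicit false

namespace H1.E8

open H11.E8 Matrix

variable {a b c x y z : ℕ} {w : W}

/-- twice the matrix of a monomial element -/
def mono (x b : ℕ) : Z8 := fun i j => if ap b j = i then 2 * sg x i else 0

theorem m_mono (h : okA b = true) : (ep x * pm b).m = (2⁻¹ : ℚ) • cz (mono x b) := by
  ext i j
  rw [m_mul, m_ep, diagonal_mul, m_pm h, Matrix.smul_apply, cz_apply, mono]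
  simp only [Fin.ext_iff, pe_val]
  split <;> simp

theorem cjZ {A : Z8} (hA : okZ A) (hb : okA b = true) (hc : okA c = true)
    (h : A * mono x b = mono y c * A) : IsConj (ep x * pm b) (ep y * pm c) :=
  isConj_iff.2 ⟨mkZ A hA, mul_inv_eq_iff_eq_mul.2 (W.ext (by
    rw [m_mul, m_mul (ep y * pm c), m_mono hb, m_mono hc, m_mkZ, smul_mul_smul_comm, smul_mul_smul_comm,
      ← cz_mul, ← cz_mul, h]))⟩

theorem m_pm2 (ha : okA a = true) (hb : okA b = true) (i j : Fin 8) :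
    (pm a * pm b).m i j = if ap a (ap b j) = i then 1 else 0 := by
  rw [m_mul, mul_apply, Finset.sum_eq_single (pe hb j) (fun k _ hk => by
    rw [m_pm hb, if_neg hk.symm, mul_zero]) (by simp), m_pm hb, if_pos rfl, mul_one, m_pm ha]
  simp only [Fin.ext_iff, pe_val]

theorem cj_pm (ha : okA a = true) (hb : okA b = true) (hc : okA c = true)
    (h : ∀ i < 8, ap c (ap b i) = ap a (ap c i)) : IsConj (ep x * pm b) (ep (act c x) * pm a) := by
  have : pm c * pm b = pm a * pm c := W.ext (by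
    ext i j; rw [m_pm2 hc hb, m_pm2 ha hc, h j j.2])
  exact isConj_iff.2 ⟨pm c, by rw [← mul_assoc, pm_ep hc, mul_assoc (ep _), this]; group⟩

theorem cj_ep (hb : okA b = true) (y : ℕ) : IsConj (ep x * pm b) (ep (x ^^^ y ^^^ act b y) * pm b) :=
  isConj_iff.2 ⟨ep y, by
    rw [ep_inv, mul_assoc, mul_assoc, pm_ep hb, ep_xor, ep_xor, ep_comm x y]; simp only [mul_assoc]⟩

theorem sq_mono (hb : okA b = true) :
    ep x * pm b * (ep x * pm b) = ep (x ^^^ act b x) * (pm b * pm b) := by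
  rw [mul_assoc, ← mul_assoc (pm b), pm_ep hb, ep_xor]; simp only [mul_assoc]

theorem red (s : Syl) (hz : z < 256) (c : ∀ g, ep z * g = g * ep z) (h : w * w = ep z) :
    ∃ x < 256, ∃ b ∈ [idA, tau, 0o76542301, 0o45672301], IsConj w (ep x * pm b) ∧ x ^^^ act b x = z := by
  have sq : ∀ {u}, IsConj w u → u * u = ep z := fun k => by
    obtain ⟨g, rfl⟩ := isConj_iff.1 k
    rw [conj_mul, h, ← c, mul_inv_cancel_right]
  obtain ⟨g, hg⟩ := s (Subgroup.zpowers w) (by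
    rintro ⟨_, k, rfl⟩
    refine ⟨2, Subtype.ext ?_⟩
    change (w ^ k) ^ (2 * 2) = 1
    rw [← zpow_natCast, ← _root_.zpow_mul, mul_comm, _root_.zpow_mul, zpow_natCast, pow_mul, pow_two w, h, pow_two, ep_sq,
      _root_.one_zpow])
  obtain ⟨x, hx, b, hb, e⟩ := hg w (Subgroup.mem_zpowers w)
  have k1 : IsConj w (ep x * pm b) := isConj_iff.2 ⟨g, e⟩
  have ok := ok_T64 b hb
  have k2 := sq k1
  rw [sq_mono ok, ← eq_inv_mul_iff_mul_eq, ep_inv, ← ep_xor] at k2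
  have k3 : ∀ i < 8, act b (act b (2 ^ i)) = 2 ^ i := fun i hi => ep_inj (act_lt _ _)
    (Nat.pow_lt_pow_right (by norm_num) hi : 2 ^ i < 2 ^ 8) (by
      rw [← pm_conj ok, ← pm_conj ok, show pm b * (pm b * ep (2 ^ i) * (pm b)⁻¹) * (pm b)⁻¹ =
        pm b * pm b * ep (2 ^ i) * (pm b * pm b)⁻¹ by group, k2, ep_comm, mul_inv_cancel_right])
  obtain ⟨d, h1, a, ha, h2⟩ := (show ∀ b ∈ T64, (∀ i < 8, act b (act b (2 ^ i)) = 2 ^ i) →
    ∃ c ∈ [16434824, 16205392, 12534480, 16096528, 12369168, 6806800, 3079440, 6852524, 4558204, 16362248,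
      7072520, 14140504, 16359980, 7070252, 2952180].filter okA,
    ∃ a ∈ [idA, tau, 0o76542301, 0o45672301], ∀ i < 8, ap c (ap b i) = ap a (ap c i) by decide +kernel) b hb k3
  obtain ⟨oa, ia⟩ := (show ∀ a ∈ [idA, tau, 0o76542301, 0o45672301], okA a = true ∧
    ∀ i < 8, ap idA i = ap a (ap a i) by decide +kernel) a ha
  have k4 := k1.trans (cj_pm oa ok (List.mem_filter.1 h1).2 h2)
  refine ⟨_, act_lt _ _, a, ha, k4, ep_inj (xor_lt (act_lt _ _) (act_lt _ _)) hz ?_⟩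
  rw [← sq k4, sq_mono oa, pm_mul oa oa ok_idA ia, pm_id, mul_one]

theorem diag (hx : x < 256) : ∃ S ∈ [0, 1, 3, 7, 15, 23, 31, 63, 127, 255], IsConj (ep x * pm idA) (ep S) := by
  obtain ⟨c, h1, h2⟩ := (show ∀ x < 256, ∃ c ∈ [16434824, 12074769, 6540625, 6154785, 13463905, 8029665,
    975996, 7515207, 15121442, 10841796, 13349700, 3536260, 6852524, 16094260, 2841048, 11788826, 3901226,
    14795690, 8181810, 8560370, 8443890, 3383667, 11335814, 11506950, 8143702, 1103830, 15339870, 2279102,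
    5136264, 9809352, 12130776, 13508264, 6081768, 3814776, 10441795, 2842371, 15772995, 5307435, 15141035,
    14968107, 6167749, 8890245, 15027229, 4130973, 3958045, 7041573, 14452389, 10293493, 4616437, 831285,
    16405704, 6011460, 8777349, 372645, 15741621, 4471285, 4677400, 11156600, 4676035, 3759651, 3900771,
    14738787], act c x ∈ [0, 1, 3, 7, 15, 23, 31, 63, 127, 255] ∧ okA c = true by decide +kernel) x hx
  exact ⟨_, h2.1, isConj_iff.2 ⟨pm c, by rw [pm_id, mul_one, pm_conj h2.2]⟩⟩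

theorem jobCLS : JobCLS := fun s => ⟨fun w h => by
  obtain ⟨x, hx, b, hb, k, e⟩ := red s (z := 0) (by norm_num) (by simp [ep_zero]) (h.trans ep_zero.symm)
  suffices ∃ y < 256, IsConj (ep x * pm b) (ep y * pm idA) by
    obtain ⟨y, hy, k1⟩ := this
    obtain ⟨S, hS, k2⟩ := diag hy
    obtain ⟨g, hg⟩ := isConj_iff.1 ((k.trans k1).trans k2)
    exact ⟨g, S, hS, hg⟩
  have t1 : okA 0o76542301 = true := by decide +kernel
  have t2 : okA 0o45672301 = true := by decide +kernel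
  simp only [List.mem_cons, List.not_mem_nil, or_false] at hb
  rcases hb with rfl | rfl | rfl | rfl
  · exact ⟨x, hx, IsConj.refl _⟩
  · have := cj_ep (x := x) ok_tau (x &&& 85)
    rw [(show ∀ x < 256, x ^^^ act tau x = 0 → x ^^^ (x &&& 85) ^^^ act tau (x &&& 85) = 0 by
      decide +kernel) x hx e, ep_zero, one_mul] at this
    obtain ⟨g, -, hg⟩ := conj_tau
    exact ⟨15, by norm_num, this.trans (by rw [pm_id, mul_one]; exact (isConj_iff.2 ⟨g, hg⟩).symm)⟩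
  · have := cj_ep (x := x) t1 (x &&& 85)
    obtain ⟨j, hj, e'⟩ := (show ∀ x < 256, x ^^^ act 0o76542301 x = 0 →
      ∃ j < 16, x ^^^ (x &&& 85) ^^^ act 0o76542301 (x &&& 85) = 16 * j by decide +kernel) x hx e
    rw [e'] at this
    let A : Z8 := !![1, -1, 1, -1, 0, 0, 0, 0; -1, 1, 1, -1, 0, 0, 0, 0; 1, 1, 1, 1, 0, 0, 0, 0;
      -1, -1, 1, 1, 0, 0, 0, 0; 0, 0, 0, 0, 2, 0, 0, 0; 0, 0, 0, 0, 0, 2, 0, 0; 0, 0, 0, 0, 0, 0, 2, 0;
      0, 0, 0, 0, 0, 0, 0, 2]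
    exact ⟨16 * j + 3, by omega, this.trans (cjZ (A := A) (by decide +kernel) t1 ok_idA
      ((show ∀ j < 16, A * mono (16 * j) 0o76542301 = mono (16 * j + 3) idA * A by decide +kernel) j hj))⟩
  · have := cj_ep (x := x) t2 (x &&& 85)
    rw [(show ∀ x < 256, x ^^^ act 0o45672301 x = 0 →
      x ^^^ (x &&& 85) ^^^ act 0o45672301 (x &&& 85) = 0 by decide +kernel) x hx e] at this
    exact ⟨147, by norm_num, this.trans (cjZ (A := !![1, -1, 1, -1, 0, 0, 0, 0; -1, 1, 1, -1, 0, 0, 0, 0;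
      1, 1, 1, 1, 0, 0, 0, 0; -1, -1, 1, 1, 0, 0, 0, 0; 0, 0, 0, 0, 1, 1, -1, -1; 0, 0, 0, 0, 1, 1, 1, 1;
      0, 0, 0, 0, -1, 1, 1, -1; 0, 0, 0, 0, -1, 1, -1, 1]) (by decide +kernel) t2 ok_idA (by decide +kernel))⟩,
  fun w h => by
  obtain ⟨x, hx, b, hb, k, e⟩ := red s (z := 255) (by norm_num) neg_comm h
  obtain ⟨h1, h2⟩ := (show ∀ b ∈ [idA, tau, 0o76542301, 0o45672301], ∀ x < 256, x ^^^ act b x = 255 →
    (b = tau ∨ b = 0o45672301) ∧ x ^^^ ((x ^^^ 85) &&& 85) ^^^ act b ((x ^^^ 85) &&& 85) = 85 by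
    decide +kernel) b hb x hx e
  have t2 : okA 0o45672301 = true := by decide +kernel
  refine isConj_iff.1 (k.trans ?_)
  rcases h1 with rfl | rfl
  · exact (h2 ▸ cj_ep ok_tau _ : IsConj _ (ep 85 * pm tau))
  · exact (h2 ▸ cj_ep t2 _ : IsConj _ (ep 85 * pm 0o45672301)).trans (cjZ (A := !![2, 0, 0, 0, 0, 0, 0, 0;
      0, 2, 0, 0, 0, 0, 0, 0; 0, 0, 2, 0, 0, 0, 0, 0; 0, 0, 0, 2, 0, 0, 0, 0; 0, 0, 0, 0, 1, 1, 1, -1;
      0, 0, 0, 0, 1, 1, -1, 1; 0, 0, 0, 0, 1, -1, 1, 1; 0, 0, 0, 0, -1, 1, 1, 1])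
      (by decide +kernel) t2 ok_tau (by decide +kernel))⟩

end H1.E8
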