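import Cfsg.Agent.H97.GaBas

/-! GAG-X3: `SL₂(F)` acting in cross characteristic with only `p`-elements having fixed points. -/

set_option autoImplicit false

namespace H1.GaX
open H97.Ga Matrix

universe v

variable {F : Type} [Field F]

def mk (a b c d : F) (h : a * d - b * c = 1) : SL2 F := ⟨!![a, b; c, d], by rw [det_fin_two_of, h]⟩

theorem mk_mul {a b c d a' b' c' d' a'' b'' c'' d'' : F} {h h' h''} (h1 : a * a' + b * c' = a'')
    (h2 : a * b' + b * d' = b'') (h3 : c * a' + d * c' = c'') (h4 : c * b' + d * d' = d'') :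
    mk a b c d h * mk a' b' c' d' h' = mk a'' b'' c'' d'' h'' :=
  Subtype.ext (by
    change !![a, b; c, d] * !![a', b'; c', d'] = !![a'', b''; c'', d'']
    rw [mul_fin_two, h1, h2, h3, h4])

def T (a : F) : SL2 F := mk 1 a 0 1 (by ring)
def L (a : F) : SL2 F := mk 1 0 a 1 (by ring)

theorem T_add (a b : F) : T a * T b = T (a + b) := mk_mul (by ring) (by ring) (by ring) (by ring)
theorem L_add (a b : F) : L a * L b = L (a + b) := mk_mul (by ring) (by ring) (by ring) (by ring)
theorem T_zero : T (0 : F) = 1 := Subtype.ext one_fin_two.symm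
theorem L_zero : L (0 : F) = 1 := Subtype.ext one_fin_two.symm

theorem T_pow (a : F) (k : ℕ) : T a ^ k = T (k * a) := by
  induction k with
  | zero => simp [T_zero]
  | succ k ih => rw [pow_succ, ih, T_add]; congr 1; push_cast; ring

theorem L_pow (a : F) (k : ℕ) : L a ^ k = L (k * a) := by
  induction k with
  | zero => simp [L_zero]
  | succ k ih => rw [pow_succ, ih, L_add]; congr 1; push_cast; ring

theorem T_eq_one {a : F} (h : T a = 1) : a = 0 := by
  simpa [T, mk] using congrArg (fun g : SL2 F => g.1 0 1) h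

theorem comm_c {A : Type*} [Ring A] {X Y : A} (hX : X * X = -X - 1) :
    Commute (X * Y + Y * X + X + Y + 1) X := by
  change _ * X = X * _
  calc _ = X * Y * X + Y * (X * X) + X * X + Y * X + X := by noncomm_ring
    _ = X * X * Y + X * Y * X + X * X + X * Y + X := by rw [hX]; noncomm_ring
    _ = _ := by noncomm_ring

theorem jobX3 : JobX3.{v} := fun p hp F _ _ V _ _ _ _ ρ h hodd h3 hpF => by
  obtain ⟨r, hr⟩ := CharP.exists F
  obtain ⟨n, hrp, hn⟩ := FiniteField.card F r
  have := Fact.mk hrp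
  have hrd : r ∣ Fintype.card F := hn ▸ dvd_pow_self r n.ne_zero
  have hr2 : r ≠ 2 := fun e => Nat.not_even_iff_odd.2 hodd (even_iff_two_dvd.2 (e ▸ hrd))
  have hrp' : r ≠ p := fun e => hpF (e ▸ hrd)
  have hTr : ∀ a : F, T a ^ r = 1 := fun a => by rw [T_pow, CharP.cast_eq_zero, zero_mul, T_zero]
  let φ : Multiplicative F →* SL2 F := MonoidHom.mk' (fun a => T a.toAdd) fun a b => (T_add _ _).symm
  have hφ : Function.Injective φ := (injective_iff_map_eq_one φ).2 fun a e => T_eq_one (a := a.toAdd) e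
  have hU : ∀ g : φ.range, g ^ r = 1 := by
    rintro ⟨_, a, rfl⟩
    exact Subtype.ext (hTr _)
  have hcard : Fintype.card F = r := by
    obtain ⟨g, hg⟩ := (h.isCyclic hr2 hrp' (Q := φ.range) fun g => ⟨1, by rw [pow_one, hU]⟩).exists_generator
    have h1 := orderOf_dvd_of_pow_eq_one (hU g)
    rw [orderOf_eq_card_of_forall_mem_zpowers hg, ← Nat.card_congr (MonoidHom.ofInjective hφ).toEquiv,
      Nat.card_eq_fintype_card, Fintype.card_multiplicative] at h1
    exact ((Nat.dvd_prime hrp).1 h1).resolve_left (by omega)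
  refine ⟨hcard ▸ hrp, fun hp3 => ?_⟩
  have nz : ∀ q : ℕ, q.Prime → (q : F) = 0 → r = q := fun q hq e =>
    (Nat.prime_dvd_prime_iff_eq hrp hq).1 ((CharP.cast_eq_zero_iff F r q).1 e)
  have h2 : (2 : F) ≠ 0 := fun e => hr2 (nz 2 Nat.prime_two (by exact_mod_cast e))
  have h3' : (3 : F) ≠ 0 := fun e => by have := nz 3 Nat.prime_three (by exact_mod_cast e); omega
  have q3 : ∀ x : SL2 F, x * x * x = 1 → x ≠ 1 → ρ x * ρ x = -ρ x - 1 := fun x hx h1 => by
    refine LinearMap.ext fun v => ?_
    by_contra e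
    refine h1 (h.eq_one_of_coprime (n := 3) (v := ρ x (ρ x v) + ρ x v + v) (by rw [pow_succ, pow_two, hx])
      ((Nat.coprime_primes Nat.prime_three hp.out).2 hp3.symm) (fun e' => e ?_) ?_)
    · change ρ x (ρ x v) = -ρ x v - v
      rw [eq_sub_iff_add_eq, eq_neg_iff_add_eq_zero, ← e']; abel
    · rw [map_add, map_add, ← rho_mul, ← rho_mul, hx, map_one, Module.End.one_apply]; abel
  let x : SL2 F := mk 0 1 (-1) (-1) (by ring)
  let y : SL2 F := mk (-1) 1 (-1) 0 (by ring)
  let a : SL2 F := mk (-1) (-2) 0 (-1) (by ring)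
  let b : SL2 F := mk (-1) 0 2 (-1) (by ring)
  let e : SL2 F := mk (-1) (-8) 0 (-1) (by ring)
  let w : SL2 F := mk 0 2 (-2⁻¹) 0 (by field_simp; ring)
  have hX := q3 x (by
    rw [show x * x = mk (-1) (-1) 1 0 (by ring) from mk_mul (by ring) (by ring) (by ring) (by ring), ← T_zero]
    exact mk_mul (by ring) (by ring) (by ring) (by ring)) fun e => by
      simpa [x, mk] using congrArg (fun g : SL2 F => g.1 0 1) e
  have hY := q3 y (by
    rw [show y * y = mk 0 (-1) 1 (-1) (by ring) from mk_mul (by ring) (by ring) (by ring) (by ring), ← T_zero]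
    exact mk_mul (by ring) (by ring) (by ring) (by ring)) fun e => by
      simpa [y, mk] using congrArg (fun g : SL2 F => g.1 0 1) e
  have ha : y * x = a := mk_mul (by ring) (by ring) (by ring) (by ring)
  have hb : x * y = b := mk_mul (by ring) (by ring) (by ring) (by ring)
  have iv : ∀ g : SL2 F, ρ g * ρ g = -ρ g - 1 → ρ g⁻¹ = -ρ g - 1 := fun g hg => by
    have h1 : ρ g⁻¹ * ρ g = 1 := by rw [← map_mul, inv_mul_cancel, map_one]
    have h4 : ρ g⁻¹ * (ρ g * ρ g) = ρ g⁻¹ * (-ρ g - 1) := by rw [hg]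
    rw [← mul_assoc, h1, one_mul, mul_sub, mul_neg, h1, mul_one] at h4
    rw [h4]; abel
  set c := ρ x * ρ y + ρ y * ρ x + ρ x + ρ y + 1 with hc
  have ca : ρ a + ρ a⁻¹ = c := by
    rw [← ha, _root_.mul_inv_rev, map_mul, map_mul, iv x hX, iv y hY, hc]; noncomm_ring
  have cb : ρ b + ρ b⁻¹ = c := by
    rw [← hb, _root_.mul_inv_rev, map_mul, map_mul, iv x hX, iv y hY, hc]; noncomm_ring
  have c1 : Commute c (ρ x) := comm_c hX
  have c2 : Commute c (ρ y) := by
    rw [show c = ρ y * ρ x + ρ x * ρ y + ρ y + ρ x + 1 by rw [hc]; abel]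
    exact comm_c hY
  have c3 : Commute c (ρ a) := by rw [← ha, map_mul]; exact c2.mul_right c1
  have c4 : Commute c (ρ b) := by rw [← hb, map_mul]; exact c1.mul_right c2
  have hw : a * (b * b) ^ 8 ^ (Fintype.card F - 2) * a = w := by
    have h8 : (8 : F) ≠ 0 := by rw [show (8 : F) = 2 ^ 3 by norm_num]; exact pow_ne_zero _ h2
    have h9 : (8 : F) ^ (Fintype.card F - 2) * 8 = 1 := by
      rw [← pow_succ, show Fintype.card F - 2 + 1 = Fintype.card F - 1 by omega,
        FiniteField.pow_card_sub_one_eq_one _ h8]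
    rw [show b * b = L (-4) from mk_mul (by ring) (by ring) (by ring) (by ring), L_pow,
      show ((8 ^ (Fintype.card F - 2) : ℕ) : F) * -4 = -2⁻¹ by
        push_cast; field_simp; linear_combination -h9,
      show a * L (-2⁻¹) = mk 0 (-2) 2⁻¹ (-1) (by field_simp; ring) from
        mk_mul (by field_simp; ring) (by ring) (by ring) (by ring)]
    exact mk_mul (by ring) (by ring) (by ring) (by field_simp; ring)
  have c5 : Commute c (ρ w) := by
    rw [← hw, map_mul, map_mul, map_pow, map_mul]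
    exact (c3.mul_right ((c4.mul_right c4).pow_right _)).mul_right c3
  have hwb : w * b = e * w := by
    rw [show w * b = mk 4 (-2) 2⁻¹ 0 (by field_simp; ring) from mk_mul (by ring) (by ring) (by ring) (by ring)]
    exact (mk_mul (by field_simp; ring) (by ring) (by ring) (by ring)).symm
  have ce : ρ e + ρ e⁻¹ = c := by
    have h1 : (ρ e + ρ e⁻¹) * ρ w = c * ρ w := by
      rw [c5.eq, ← cb, add_mul, mul_add, ← map_mul, ← map_mul, ← map_mul, ← map_mul, hwb,
        show w * b⁻¹ = e⁻¹ * w by rw [eq_inv_mul_iff_mul_eq, ← mul_assoc, ← hwb, mul_inv_cancel_right]]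
    have h4 := congrArg (· * ρ w⁻¹) h1
    simpa only [mul_assoc, ← map_mul, mul_inv_cancel, map_one, mul_one] using h4
  have key : ρ (T 10) * ρ (T 6) + 1 = ρ (T 10) + ρ (T 6) := by
    have h1 := congrArg (· * ρ e) (ce.trans ca.symm)
    simp only [add_mul, ← map_mul, inv_mul_cancel, map_one] at h1
    rw [← map_mul, T_add, show T (10 + 6 : F) = e * e from (mk_mul (by ring) (by ring) (by ring) (by ring)).symm,
      h1, show a * e = T 10 from mk_mul (by ring) (by ring) (by ring) (by ring),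
      show a⁻¹ * e = T 6 from inv_mul_eq_iff_eq_mul.2 (mk_mul (by ring) (by ring) (by ring) (by ring)).symm]
  have hcop : r.Coprime p := (Nat.coprime_primes hrp hp.out).2 hrp'
  obtain ⟨v, hv⟩ := exists_ne (0 : V)
  have h6 : ρ (T 6) v - v ≠ 0 := fun e => mul_ne_zero h2 h3' (by
    rw [← T_eq_one (h.eq_one_of_coprime (hTr 6) hcop hv (sub_eq_zero.1 e))]; norm_num)
  have h10 := T_eq_one (h.eq_one_of_coprime (hTr 10) hcop h6 (by
    have := LinearMap.congr_fun key v
    simp only [LinearMap.add_apply, Module.End.mul_apply, Module.End.one_apply] at this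
    rw [map_sub, sub_eq_sub_iff_add_eq_add, this, add_comm]))
  rw [hcard]
  refine nz 5 Nat.prime_five ((mul_eq_zero.1 (?_ : (2 : F) * (5 : ℕ) = 0)).resolve_left h2)
  rw [← h10]; norm_num

end H1.GaX
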