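import Cfsg.Agent.H34.K6Spec

/-! K64 tower, job B: the commutator `[Q, σ]` is not metacyclic. -/

set_option autoImplicit false

namespace H1.K6

open Subgroup Cfsg H8.BC H92 H9 H34.Kb H34.K6
open scoped commutatorElement

universe u

theorem eq_or_of_sq {V : Type*} [Group V] {c t : V} (h : c * c = 1) (ht : t ∈ zpowers c) :
    t = 1 ∨ t = c := by
  obtain ⟨i, rfl⟩ := ht
  have h2 : ∀ k : ℤ, c ^ (2 * k) = 1 := fun k => by rw [zpow_mul, zpow_two, h, one_zpow]
  obtain ⟨k, rfl | rfl⟩ := Int.even_or_odd' i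
  · exact .inl (h2 k)
  · exact .inr (by simp only [zpow_add_one, h2, one_mul])

theorem jobB : JobB.{u} := by
  intro T P _ _ Q s z σ k h hz z1 zσ hm
  have hP := k.p
  have I := h.cm_inv hP
  have hV := hP.to_subgroup (cm σ)
  obtain ⟨q1, q2⟩ := k.card_le h.s_not
  have zQ : z ∈ Q := h.cen z fun y _ => by rw [← mem_center_iff.1 hz, mul_inv_cancel_right]
  have eVQ : 32 ≤ Nat.card (cm σ) → cm σ = Q := fun e => eq_of_le_of_card_ge cm_le (by omega)
  have cVQ := card_le_of_le (cm_le (σ := σ))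
  have hi : (frattini (cm σ)).index ≤ 2 ^ 3 := by
    by_cases h32 : 32 ≤ Nat.card (cm σ)
    · exact k.rank3 ((congrArg index (eVQ h32)).trans (q2 (by omega)))
    by_contra hi
    obtain ⟨n, hn⟩ := hV.index (frattini (cm σ))
    have h1 : 2 ^ 4 ≤ (frattini (cm σ)).index := by
      rw [hn] at hi ⊢
      exact Nat.pow_le_pow_right two_pos ((Nat.pow_lt_pow_iff_right one_lt_two).1 (not_le.1 hi))
    have h2 := (frattini (cm σ)).index_mul_card
    have h3 : frattini (cm σ) = ⊥ := (card_le_one_iff_eq_bot _).1 (by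
      by_contra h3
      have := Nat.mul_le_mul h1 (not_le.1 h3)
      omega)
    have h4 : ∀ t ∈ phi (cm σ), t = 1 := fun t ht => by
      have := (mem_phi (phi_le _ ht)).1 ht
      rw [h3] at this
      exact congrArg Subtype.val (mem_bot.1 this)
    have h5 : z ∉ cm σ := fun e => z1 (by
      have := h.t3 (B := ⊥) (fun y hy w hw => h4 _ (commutator_mem_phi hV hy hw)) e
      rwa [zσ, zσ, k.cen z hz, one_mul] at this)
    have h6 := mul_card_le_of_lt hP (lt_of_le_not_ge (le_sup_left : _ ≤ cm σ ⊔ zpowers z)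
      fun e => h5 (e (mem_sup_right (mem_zpowers z))))
    rw [h3, card_bot] at h2
    rw [h3] at h1
    have h7 : cm σ ⊔ zpowers z = Q := eq_of_le_of_card_ge (sup_le cm_le (zpowers_le.2 zQ)) (by omega)
    have h8 : ∀ t : Q, t ^ 2 = 1 := fun t => Subtype.ext (by
      rcases (mem_dbl (T := cm σ) (h := z) (fun t ht => by
        rwa [← mem_center_iff.1 hz, mul_inv_cancel_right]) (k.cen z hz ▸ one_mem _)).1
        (h7.ge t.2) with e | e
      · exact h4 _ (pow_mem_phi hV e)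
      · have := h4 _ (pow_mem_phi hV e)
        rwa [(show Commute z⁻¹ (t : P) from (mem_center_iff.1 (inv_mem hz) _).symm).mul_pow, inv_pow,
          sq z, k.cen z hz, inv_one, one_mul] at this)
    have h9 : frattini Q ≤ ⊥ := frattini_le_of_forall (p := 2) (fun x y => by
      have : ∀ t : Q, t⁻¹ = t := fun t => inv_eq_of_mul_eq_one_left (sq t ▸ h8 t)
      rw [mem_bot, commutatorElement_def, this, this, mul_assoc (x * y), ← sq, h8]) h8
    have h10 := k.rank3 (q2 (by rw [← h7]; omega))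
    rw [le_bot_iff.1 h9, index_bot, ← h7] at h10
    omega
  let β : stab Q (cm σ) := ⟨σ, mem_stab_of_maps I.le I.sig⟩
  obtain ⟨c, t⟩ | ⟨e, -⟩ := T (cm σ) (res I.le β) hV
    (by rw [← map_pow, show β ^ 3 = 1 from Subtype.ext h.cube, map_one])
    (fun e => by
      obtain ⟨y, hy, e'⟩ := I.ne
      exact e' (by rw [← af_res I.le β hy, e, af_one_apply])) (h.cm_d2 hP hi) (by omega) hm
  swap
  · omega
  have eV := eVQ t.card.ge
  have iV : (cm σ).index = 2 := (congrArg index eV).trans (q2 (t.card ▸ cVQ))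
  have zV : z ∈ cm σ := eV.ge zQ
  have zc : (c : P) = z := by
    rcases eq_or_of_sq t.c2 (t.fix ⟨z, zV⟩ (Subtype.ext (by
      rw [← af_of_mem _ zV, af_res I.le β zV]; exact zσ))) with e | e
    · exact absurd (congrArg Subtype.val e) z1
    · rw [← e]
  have der : ⁅cm σ, cm σ⁆ = zpowers z := by
    rw [← map_subtype_commutator, t.der, MonoidHom.map_zpowers, ← zc]; rfl
  have cen : ∀ a ∈ phi (cm σ), ∀ b ∈ cm σ, b * a = a * b := fun a ha b hb =>
    congrArg Subtype.val (mem_center_iff.1 (t.cen ((mem_phi (phi_le _ ha)).1 ha)) ⟨b, hb⟩)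
  have hsq : ∀ a ∈ cm σ, a ∉ phi (cm σ) → a * a ∉ zpowers z := fun a ha h1 ⟨i, e⟩ =>
    t.sq ⟨a, ha⟩ (mt (mem_phi ha).2 h1) ⟨i, Subtype.ext (by simpa [zc] using e)⟩
  have s2 : ∀ a ∈ cm σ, a * a ∈ phi (cm σ) := fun a ha => sq a ▸ pow_mem_phi hV ha
  obtain ⟨y, hy, hu⟩ := h.exists_y hP I
  have hsy := I.sn y hy
  have huV := mul_mem (inv_mem hy) hsy
  have y4 : y ^ 4 = 1 := congrArg Subtype.val (t.exp ⟨y, hy⟩)
  have e1 : s * (y * y) * s⁻¹ = s * y * s⁻¹ * (s * y * s⁻¹) := by group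
  have h1 : y * y * (s * (y * y) * s⁻¹) ∉ zpowers z := fun e => by
    generalize hu' : y⁻¹ * (s * y * s⁻¹) = u at hu huV
    have h2 : ⁅u, y⁆ ∈ zpowers z := der ▸ commutator_mem_commutator huV hy
    refine hsq u huV hu ((mul_mem_cancel_left h2).1 ?_)
    have h3 : s * y * s⁻¹ = y * u := by rw [← hu', mul_inv_cancel_left]
    have h4 := mem_center_iff.1 (zpowers_le.2 hz h2) (y * y * y)
    rwa [e1, h3, show y * y * (y * u * (y * u)) = y * y * y * ⁅u, y⁆ * y * (u * u) by
      rw [commutatorElement_def]; group, h4, show ⁅u, y⁆ * (y * y * y) * y = ⁅u, y⁆ * y ^ 4 by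
      simp only [pow_succ, pow_zero, one_mul, mul_assoc], y4, mul_one] at e
  refine ⟨cm σ, iV, fun q hq e r hr => (cen q (by_contra fun h2 => hsq q hq h2 (e ▸ one_mem _)) r hr).symm,
    der, ⟨y, y4, fun e => h1 ?_⟩, y * y * (s * (y * y) * s⁻¹), mem_center_iff.2 fun g => ?_,
    fun e => h1 (e ▸ one_mem _), fun e => h1 (e ▸ mem_zpowers _)⟩
  · rw [mem_center_iff.1 e s, mul_inv_cancel_right, show y * y * (y * y) = y ^ 4 by
      simp only [pow_succ, pow_zero, one_mul, mul_assoc], y4]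
    exact one_mem _
  · have h2 : s * (y * y) * s⁻¹ ∈ phi (cm σ) := e1 ▸ s2 _ hsy
    have h3 := cen _ (mul_mem (s2 y hy) h2)
    have sV : s ∉ cm σ := fun e => h.s_not (cm_le e)
    have h4 : s * (y * y * (s * (y * y) * s⁻¹)) = y * y * (s * (y * y) * s⁻¹) * s := by
      calc s * (y * y * (s * (y * y) * s⁻¹)) = s * (y * y) * s⁻¹ * (s * s * (y * y)) * s⁻¹ := by group
        _ = s * (y * y) * s⁻¹ * (y * y) * s := by
          rw [cen _ (s2 y hy) _ ((mul_mem_iff_of_index_two iV).2 Iff.rfl)]; group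
        _ = _ := by rw [cen _ (s2 y hy) _ (phi_le _ h2)]
    by_cases hg : g ∈ cm σ
    · exact h3 g hg
    · have h5 := h3 _ ((mul_mem_iff_of_index_two iV).2 (iff_of_false (mt inv_mem_iff.1 sV) hg))
      rw [← mul_inv_cancel_left s g, mul_assoc, h5, ← mul_assoc, h4, mul_assoc]

end H1.K6
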