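import Cfsg.Agent.H34.K6Spec

/-! K64 tower, job T: non-metacyclic two-generator 2-groups of order at most 64 with an
automorphism of order three. -/

set_option autoImplicit false

namespace H1.K6

open Subgroup Cfsg H8.BC H92 H9 H34.Kb H34.K6
open scoped commutatorElement

universe u

variable {V : Type u} [Group V]

theorem chr (K : Subgroup V) [K.Characteristic] (α : MulAut V) {y : V} (hy : y ∈ K) : α y ∈ K :=
  (characteristic_iff_map_le.mp inferInstance α) ⟨_, hy, rfl⟩

theorem mc_of {a b : V} (hn : (zpowers a).Normal) (hg : Gn a b) : IsMetacyclic V :=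
  H19.MC.isMetacyclic (a := a) (b := b) ⟨hn, fun g => by
    have h1 : g ∈ ((zpowers a ⊔ zpowers b : Subgroup V) : Set V) :=
      hg _ (mem_sup_left (mem_zpowers a)) (mem_sup_right (mem_zpowers b)) ▸ mem_top g
    rw [normal_mul] at h1
    obtain ⟨_, ⟨i, rfl⟩, _, ⟨j, rfl⟩, e⟩ := h1
    exact ⟨i, j, e.symm⟩⟩

/-- The elements whose `k`-th power is in the derived subgroup. -/
def pw (V : Type u) [Group V] (k : ℕ) : Subgroup V :=
  ((powMonoidHom k).comp (Abelianization.of (G := V))).ker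

theorem mem_pw {k : ℕ} {g : V} : g ∈ pw V k ↔ g ^ k ∈ commutator V := by
  rw [← Abelianization.ker_of, MonoidHom.mem_ker, map_pow]; rfl

theorem jobT : JobT.{u} := by
  intro V _ _ α hV h3 h1 hi h64 hm
  classical
  have cop : (orderOf α).Coprime 2 :=
    Nat.Coprime.coprime_dvd_left (orderOf_dvd_of_pow_eq_one h3) (by decide)
  have a3 : ∀ t, α (α (α t)) = t := fun t => by
    rw [← MulAut.mul_apply, ← MulAut.mul_apply, ← pow_three', h3, MulAut.one_apply]
  have gen : ∀ t ∉ frattini V, Gn t (α t) := fun t ht K k1 k2 =>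
    eq_top_iff.2 (sup_zpowers_eq_top_two hV hi cop h1 ht ▸ sup_le (zpowers_le.2 k1) (zpowers_le.2 k2))
  have sqΦ : ∀ t : V, t ^ 2 ∈ frattini V := pow_mem_frattini hV
  have DΦ : commutator V ≤ frattini V := commutator_le_frattini hV
  have nα : ∀ t ∉ frattini V, α t ∉ frattini V := fun t ht h =>
    ht (by simpa using map_mem_frattini α⁻¹ h)
  have nd : ∀ t ∉ frattini V, t⁻¹ * α t ∉ frattini V := fun t ht h => by
    have h2 : zpowers t = ⊤ := frattini_nongenerating (gen t ht _ (mem_sup_left (mem_zpowers t))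
      (by simpa using mul_mem_sup (mem_zpowers t) h))
    exact hm (mc_of (h2 ▸ inferInstance) (gen t ht))
  have nm : ∀ t ∉ frattini V, t * α t ∉ frattini V := fun t ht h => nd t ht (by
    simpa [pow_two, mul_assoc] using mul_mem (inv_mem (sqΦ t)) h)
  obtain ⟨a, ha⟩ : ∃ a, a ∉ frattini V := by
    by_contra! h
    have h2 : (⊥ : Subgroup V) = ⊤ := frattini_nongenerating ((eq_top_iff' _).2 fun g => mem_sup_right (h g))
    exact h1 (MulEquiv.ext fun g => by rw [mem_bot.1 (h2.ge (mem_top g)), map_one, map_one])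
  have hna : commutator V ≠ ⊥ := fun h => by
    have := (commutator_eq_bot_iff V).1 h
    exact hm (mc_of ⟨fun n hn g => by rwa [mul_comm' g n, mul_inv_cancel_right]⟩ (gen a ha))
  have powD : ∀ k, ∀ t ∉ frattini V, t ^ k ∈ commutator V → ∀ g : V, g ^ k ∈ commutator V :=
    fun k t ht h g => mem_pw.1 (gen t ht (pw V k) (mem_pw.2 h)
      (mem_pw.2 (map_pow α t k ▸ chr _ α h)) ▸ mem_top g)
  obtain ⟨n, hn⟩ := IsPGroup.iff_card.1 hV
  have c64 : 32 < Nat.card V → Nat.card V = 64 := fun h => by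
    rw [hn] at h h64 ⊢
    have := (Nat.pow_lt_pow_iff_right (a := 2) (n := 5) one_lt_two).1 h
    have := (Nat.pow_le_pow_iff_right (a := 2) (m := 6) one_lt_two).1 h64
    rw [show n = 6 by omega]; rfl
  have cΦ : 4 * Nat.card (frattini V) ≤ Nat.card V := by
    have h2 := mul_card_le_of_lt hV (lt_of_le_not_ge (le_sup_left : _ ≤ frattini V ⊔ zpowers a)
      fun h => ha (h (mem_sup_right (mem_zpowers a))))
    have h4 := mul_card_le_of_lt hV (lt_top_iff_ne_top.2 fun h : frattini V ⊔ zpowers a = ⊤ =>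
      hm (mc_of (frattini_nongenerating ((sup_comm _ _).trans h) ▸ inferInstance) (gen a ha)))
    rw [card_top] at h4
    omega
  have sqD : ∀ t ∉ frattini V, t ^ 2 ∉ commutator V := fun t ht h => by
    have h2 : commutator V = frattini V := DΦ.antisymm (frattini_le_of_forall (p := 2)
      commutatorElement_mem_commutator (powD 2 t ht h))
    have h4 := (frattini V).index_mul_card
    obtain ⟨m, x, y, D⟩ := H3.exists_dsq_of_index_commutator' hV
      (fun e => hna ((commutator_eq_bot_iff V).2 e)) (h2 ▸ hi.antisymm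
        (Nat.le_of_mul_le_mul_right (c := Nat.card (frattini V)) (by omega) Nat.card_pos))
    exact hm (H19.MC.isMetacyclic ⟨D.normal, fun g => (D.eq_zpow_or g).elim
      (fun ⟨i, e⟩ => ⟨i, 0, by simpa using e⟩) fun ⟨i, e⟩ => ⟨i, 1, by simpa using e⟩⟩)
  have dD : ∀ {T : Subgroup V}, commutator V ≤ T → ∀ h : V, ∀ t ∈ T, h * t * h⁻¹ ∈ T :=
    fun hT h t ht => by
      simpa [commutatorElement_def] using mul_mem (hT (commutatorElement_mem_commutator h t)) ht
  have c4 : 4 * Nat.card (commutator V) ≤ Nat.card ↥(frattini V ⊓ pw V 2) := by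
    obtain ⟨k, k1, k2⟩ := exists_pow_not_mem_pow_mem hV (sqD a ha)
    rw [← pow_mul a 2] at k1 k2
    have k3 : ∀ g : V, g ^ (2 * 2 ^ k) ∈ frattini V ⊓ pw V 2 := fun g =>
      ⟨pow_mul g 2 _ ▸ pow_mem (sqΦ g) _, mem_pw.2 (by
        rw [← pow_mul]; exact powD _ a ha (by rwa [pow_mul]) g)⟩
    have k4 : ∀ t ∉ frattini V, t ^ (2 * 2 ^ k) ∉ commutator V := fun t ht h => k1 (powD _ t ht h a)
    have h2 := mul_card_le_of_lt hV (lt_of_le_not_ge
      (le_sup_left : _ ≤ commutator V ⊔ zpowers (a ^ (2 * 2 ^ k)))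
      fun h => k1 (h (mem_sup_right (mem_zpowers _))))
    have h4 := mul_card_le_of_lt hV (lt_of_le_not_ge (sup_le (le_inf DΦ fun g hg =>
      mem_pw.2 (pow_mem hg 2)) (zpowers_le.2 (k3 a))) fun h => by
        rcases (mem_dbl (dD le_rfl _) (sq (a ^ (2 * 2 ^ k)) ▸ k2)).1 (h (k3 (α a))) with e | e
        · exact k4 _ (nα a ha) e
        · refine k4 _ (nd a ha) ?_
          rw [← Abelianization.ker_of, MonoidHom.mem_ker] at e ⊢
          simpa [mul_pow] using e)
    omega
  have c5 := card_le_of_le (inf_le_left : frattini V ⊓ pw V 2 ≤ _)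
  have cen : commutator V ≤ center V := fun c hc => by
    by_contra hc'
    obtain ⟨w, w1, w2, w3⟩ := exists_mem_center_orderOf_eq hV hna
    have h2 : zpowers w ≤ center V := zpowers_le.2 w2
    have h4 := relIndex_mul_card_le (zpowers_le.2 w1)
    rw [Nat.card_zpowers, w3] at h4
    have h5 : ((zpowers w).subgroupOf (commutator V)).index = 2 := by
      have h6 : (zpowers w).relIndex (commutator V) ≠ 1 := fun h => hc' (h2 (relIndex_eq_one.1 h hc))
      have h7 : (zpowers w).relIndex (commutator V) ≠ 0 := FiniteIndex.index_ne_zero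
      change (zpowers w).relIndex (commutator V) = 2
      omega
    have h6 : ∀ e ∈ commutator V, e ∉ zpowers w → c⁻¹ * e ∈ zpowers w := fun e he he' =>
      (mul_mem_iff_of_index_two h5 (a := ⟨c, hc⟩⁻¹) (b := ⟨e, he⟩)).2
        (iff_of_false (fun h => hc' (h2 (mem_subgroupOf.1 (inv_mem_iff.1 h)))) he')
    have h7 : ∀ t ∉ frattini V, t * c * t⁻¹ ≠ c := fun t ht e => by
      have h8 : t ∈ centralizer (commutator V : Set V) := fun g hg => by
        by_cases h9 : g ∈ zpowers w
        · exact (mem_center_iff.1 (h2 h9) t).symm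
        · have h10 := mem_center_iff.1 (h2 (h6 g hg h9)) t
          calc g * t = c * (c⁻¹ * g * t) := by group
            _ = t * c * t⁻¹ * (t * (c⁻¹ * g)) := by rw [e, h10]
            _ = _ := by group
      exact hc' (mem_center_iff.2 fun g =>
        ((gen t ht _ h8 (chr _ α h8)).ge (mem_top g) c hc).symm)
    have w4 : w * w = 1 := by rw [← sq, ← w3, pow_orderOf_eq_one]
    have h8 : ∀ t ∉ frattini V, t * c * t⁻¹ = c * w := fun t ht => by
      have h9 := h6 _ (dD le_rfl t c hc) fun h => hc' (by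
        simpa [mul_assoc] using (inferInstance : (center V).Normal).conj_mem _ (h2 h) t⁻¹)
      rcases (mem_zpowers_iff_mem_range_orderOf.1 h9 |> Finset.mem_image.1) with ⟨i, i1, i2⟩
      rw [w3, Finset.mem_range] at i1
      interval_cases i
      · exact absurd (inv_mul_eq_one.1 (pow_zero w ▸ i2.symm)).symm (h7 t ht)
      · rw [← pow_one w, i2, mul_inv_cancel_left]
    refine h7 _ (nm a ha) ?_
    calc a * α a * c * (a * α a)⁻¹ = a * (α a * c * (α a)⁻¹) * a⁻¹ := by group
      _ = a * c * (w * a⁻¹) := by rw [h8 _ (nα a ha)]; group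
      _ = a * c * a⁻¹ * w := by rw [← mem_center_iff.1 w2, mul_assoc (a * c)]
      _ = c := by rw [h8 a ha, mul_assoc, w4, mul_one]
  obtain ⟨c, hc⟩ : ∃ c, c = ⁅a, α a⁆ := ⟨_, rfl⟩
  have cD : c ∈ commutator V := hc ▸ commutatorElement_mem_commutator _ _
  have der : commutator V = zpowers c := by
    have : (zpowers c).Normal := ⟨fun n hn g => by
      rwa [mem_center_iff.1 (cen (zpowers_le.2 cD hn)) g, mul_inv_cancel_right]⟩
    exact (comm_le (gen a ha) (hc ▸ mem_zpowers c)).antisymm (zpowers_le.2 cD)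
  have c1 : c ≠ 1 := fun e => hna (by rw [der, e, zpowers_one_eq_bot])
  have cO : Nat.card (commutator V) = orderOf c := by rw [der, Nat.card_zpowers]
  by_cases c2 : c * c = 1
  swap
  · refine .inr ⟨c64 ?_, c, cen cD, c2⟩
    have h2 : orderOf c ≠ 1 := mt orderOf_eq_one_iff.1 c1
    have h4 : orderOf c ≠ 2 := fun e => c2 (by rw [← sq, ← e, pow_orderOf_eq_one])
    have h5 := orderOf_pos c
    omega
  rw [orderOf_eq_prime (p := 2) (sq c ▸ c2) c1] at cO
  have e2 : ∀ e ∈ commutator V, e * e = 1 := fun e he => by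
    obtain ⟨i, rfl⟩ := der.le he
    simp only [← (Commute.refl c).mul_zpow, c2, one_zpow]
  have s2 : ∀ x : V, x ^ 2 ∈ center V := fun x => mem_center_iff.2 fun y => by
    have h2 := commutatorElement_mem_commutator x y
    have h4 := mem_center_iff.1 (cen h2) x
    calc y * x ^ 2 = ⁅x, y⁆ * ⁅x, y⁆ * y * x ^ 2 := by rw [e2 _ h2, one_mul]
      _ = ⁅x, y⁆ * x * y * x := by rw [commutatorElement_def, sq]; group
      _ = _ := by rw [← h4, commutatorElement_def, sq]; group
  have cenΦ : frattini V ≤ center V := frattini_le_of_forall (p := 2)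
    (fun x y => cen (commutatorElement_mem_commutator x y)) s2
  by_cases hK : frattini V ≤ pw V 2
  swap
  · obtain ⟨t, t1, t2⟩ := SetLike.not_le_iff_exists.1 hK
    have h2 := mul_card_le_of_lt hV (lt_of_le_not_ge (inf_le_left : frattini V ⊓ pw V 2 ≤ _)
      fun h => hK (h.trans inf_le_right))
    exact .inr ⟨c64 (by omega), t, cenΦ t1, fun e => t2 (mem_pw.2 (sq t ▸ e ▸ one_mem _))⟩
  have p4 : ∀ t : V, t ^ 2 * t ^ 2 ∈ commutator V := fun t => sq (t ^ 2) ▸ mem_pw.1 (hK (sqΦ t))
  have αD : ∀ e ∈ commutator V, α e = e := fun e he => by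
    obtain ⟨i, rfl⟩ := der.le he
    simp only [map_zpow, fix_of_mem_zpowers_two hV cop (der.le (chr _ α cD))]
  have f4 : ∀ x y : V, (x * y) ^ 4 = x ^ 4 * y ^ 4 := fun x y => by
    have h2 := commutatorElement_mem_commutator y x
    have h4 : (x * y) ^ 2 = ⁅y, x⁆ * (x ^ 2 * y ^ 2) := by
      calc (x * y) ^ 2 = x * ⁅y, x⁆ * x * y ^ 2 := by rw [commutatorElement_def, sq, sq]; group
        _ = _ := by rw [mem_center_iff.1 (cen h2) x, sq x]; group
    rw [show 4 = 2 * 2 from rfl, pow_mul, pow_mul, pow_mul, h4,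
      (show Commute _ _ from (mem_center_iff.1 (cen h2) _).symm).mul_pow, sq ⁅y, x⁆, e2 _ h2, one_mul,
      (show Commute _ _ from mem_center_iff.1 (s2 y) _).mul_pow]
  have exp : ∀ t : V, t ^ 4 = 1 := fun t => by
    have h2 : ∀ x : V, x⁻¹ * α x ∈ (MonoidHom.mk' (fun x : V => x ^ 4) f4).ker := fun x => by
      rw [MonoidHom.mem_ker, map_mul, map_inv]
      change (x ^ 4)⁻¹ * α x ^ 4 = 1
      rw [← map_pow, αD _ (by simpa [← pow_add] using p4 x), inv_mul_cancel]
    exact (gen _ (nd a ha) _ (h2 a) (by rw [map_mul, map_inv]; exact h2 _)).ge (mem_top t)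
  refine .inl ⟨c, ?_, c1, c2, der, cenΦ, exp, fun t ht => der ▸ sq t ▸ sqD t ht, fun t ht => ?_⟩
  · have l1 : commutator V ≤ commutator V ⊔ zpowers (a ^ 2) := le_sup_left
    have l2 := l1.trans (le_sup_left : _ ≤ _ ⊔ zpowers (α a ^ 2))
    have l3 := l2.trans (le_sup_left : _ ≤ _ ⊔ zpowers a)
    have h2 := dbl (dD le_rfl (a ^ 2)) (p4 a)
    have h4 := dbl (dD l1 (α a ^ 2)) (l1 (p4 _))
    have h5 := dbl (dD l2 a) (mem_sup_left (mem_sup_right (sq a ▸ mem_zpowers _)))
    have h6 := dbl (dD l3 (α a)) (mem_sup_left (mem_sup_right (sq (α a) ▸ mem_zpowers _)))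
    rw [gen a ha _ (mem_sup_left (mem_sup_right (mem_zpowers a))) (mem_sup_right (mem_zpowers _)),
      card_top] at h6
    omega
  · let π := Abelianization.of (G := V)
    let N : V →* Abelianization V := π * π.comp α.toMonoidHom * π.comp (α * α).toMonoidHom
    have hN : ∀ x, N x = π x * π (α x) * π (α (α x)) := fun _ => rfl
    have h2 : ∀ x : V, x⁻¹ * α x ∈ N.ker := fun x => by
      rw [MonoidHom.mem_ker, map_mul, map_inv, hN, hN, a3, inv_mul_eq_one]
      ac_rfl
    have h4 : N t = 1 := (gen _ (nd a ha) _ (h2 a) (by rw [map_mul, map_inv]; exact h2 _)).ge (mem_top t)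
    rw [hN, ht, ht, ← map_mul, ← map_mul, ← MonoidHom.mem_ker, Abelianization.ker_of, der] at h4
    rwa [← inv_mem_iff, ← mul_eq_one_iff_inv_eq.1 (show t * t * t * t = 1 by
      rw [← exp t]; simp only [pow_succ, pow_zero, one_mul]), inv_inv]

end H1.K6
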