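import Cfsg.Agent.H68.KcSpec

/-! Tower KC, slots Ord and Cnt: the order of a `p`-group of degree `m`. -/

set_option autoImplicit false

namespace H1.KcCnt

open scoped Classical
open H68.Kc

theorem jobOrd : JobOrd := by
  intro p G X _ _ _ _ C Y hp hC hY
  have := Fact.mk hp
  let : MulAction C Y :=
    { smul := fun g y => ⟨(g : G) • (y : X), hY g g.2 y y.2⟩
      one_smul := fun y => Subtype.ext (one_smul G _)
      mul_smul := fun g h y => Subtype.ext (mul_smul (g : G) (h : G) _) }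
  let f := MulAction.toPermHom C Y
  have k : f.ker = (Ker C Y).subgroupOf C := by
    ext g
    rw [MonoidHom.mem_ker, Subgroup.mem_subgroupOf, mem_ker]
    exact ⟨fun e => ⟨g.2, fun x hx => congrArg Subtype.val (Equiv.congr_fun e ⟨x, hx⟩)⟩,
      fun e => Equiv.ext fun x => Subtype.ext (e.2 x x.2)⟩
  have c1 : Nat.card f.ker = Nat.card (Ker C Y) := by
    rw [k]
    exact Nat.card_congr (Subgroup.subgroupOfEquivOfLe (inf_le_left : Ker C Y ≤ C)).toEquiv
  obtain ⟨e, he⟩ := IsPGroup.iff_card.1 (hC.of_surjective _ f.rangeRestrict_surjective)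
  have d : p ^ e ∣ (Y.card).factorial := by
    have := Subgroup.card_subgroup_dvd_card f.range
    rwa [he, Nat.card_perm, Nat.card_eq_fintype_card, Fintype.card_coe] at this
  have le : e ≤ padicValNat p (Y.card).factorial :=
    (padicValNat_dvd_iff_le (Nat.factorial_ne_zero _)).1 d
  have le2 : e ≤ (Y.card - 1) / (p - 1) := by
    rw [Nat.le_div_iff_mul_le (by have := hp.two_le; omega)]
    by_cases z : Y.card = 0
    · rw [z] at le
      simp at le
      simp [le]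
    · have := sub_one_mul_padicValNat_factorial_lt_of_ne_zero p z
      have := Nat.mul_le_mul_left (p - 1) le
      rw [mul_comm]
      omega
  rw [← f.ker.card_mul_index, Subgroup.index_ker, he, c1]
  exact Nat.mul_le_mul_left _ (Nat.pow_le_pow_right hp.pos le2)

theorem jobCnt : JobCnt := by
  intro p G X _ _ _ _ R M x v hp hR hM hc hn hv hv'
  have inv : ∀ g ∈ R, ∀ y ∈ orbF R x, g • y ∈ orbF R x := fun g hg y hy => by
    obtain ⟨k, hk, rfl⟩ := mem_orbF.1 hy
    exact mem_orbF.2 ⟨g * k, mul_mem hg hk, mul_smul _ _ _⟩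
  let C : Subgroup G :=
    { carrier := {u | u ∈ M ∧ Cm (orbF R x) u v}
      one_mem' := ⟨one_mem _, fun y _ => by simp⟩
      mul_mem' := fun {a b} ha hb => ⟨mul_mem ha.1 hb.1, fun y hy => by
        rw [mul_smul, hb.2 y hy, ha.2 _ (inv b (hM hb.1) y hy), mul_smul]⟩
      inv_mem' := fun {a} ha => ⟨inv_mem ha.1, fun y hy => by
        rw [inv_smul_eq_iff, ha.2 _ (inv _ (inv_mem (hM ha.1)) y hy), smul_inv_smul]⟩ }
  have CM : C ≤ M := fun _ h => h.1
  have o := jobOrd p G X C (orbF M x) hp (hR.to_le (CM.trans hM)) fun g hg y hy => by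
    obtain ⟨k, hk, rfl⟩ := mem_orbF.1 hy
    exact mem_orbF.2 ⟨g * k, mul_mem hg.1 hk, mul_smul _ _ _⟩
  have c1 : (Finset.univ.filter (fun u => u ∈ M ∧ Cm (orbF R x) u v)).card = Nat.card C := by
    rw [Nat.card_eq_fintype_card, Fintype.card_subtype]
    refine congrArg Finset.card (Finset.ext fun u => ?_)
    simp only [Finset.mem_filter]
    rfl
  -- the elements `v ^ i * h`
  let S : Subgroup G :=
    { carrier := {g | ∃ i : ℤ, ∃ h ∈ M, g = v ^ i * h}
      one_mem' := ⟨0, 1, one_mem _, by simp⟩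
      mul_mem' := fun ⟨i, h, hh, e⟩ ⟨j, k, hk, e'⟩ => ⟨i + j, (v ^ j)⁻¹ * h * (v ^ j)⁻¹⁻¹ * k,
        mul_mem (hn _ (inv_mem (zpow_mem hv j)) h hh) hk, by rw [e, e']; group⟩
      inv_mem' := fun ⟨i, h, hh, e⟩ => ⟨-i, v ^ i * h⁻¹ * (v ^ i)⁻¹,
        hn _ (zpow_mem hv i) _ (inv_mem hh), by rw [e]; group⟩ }
  have MS : M ≤ S := fun h hh => ⟨0, h, hh, by simp⟩
  have SR : S ≤ R := fun _ ⟨i, h, hh, e⟩ => e ▸ mul_mem (zpow_mem hv i) (hM hh)
  have RS : R ≤ S := by
    obtain ⟨a, ha⟩ := Subgroup.card_dvd_of_le MS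
    obtain ⟨b, hb⟩ := Subgroup.card_dvd_of_le SR
    have m0 : 0 < Nat.card M := Nat.card_pos
    have e : p = a * b := by
      rw [hc, ha, mul_comm p, mul_assoc] at hb
      exact Nat.eq_of_mul_eq_mul_left m0 hb
    rcases (Nat.dvd_prime hp).1 ⟨b, e⟩ with a1 | a1
    · rw [a1, mul_one] at ha
      exact absurd ((Subgroup.eq_of_le_of_card_ge MS ha.le).ge ⟨1, 1, one_mem _, by simp⟩) hv'
    · exact (Subgroup.eq_of_le_of_card_ge SR (by rw [hc, ha, a1, mul_comm])).ge
  have cz : ∀ u ∈ C, ∀ i : ℤ, ∀ y ∈ orbF R x, u • v ^ i • y = v ^ i • u • y := fun u hu i => by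
    induction i using Int.induction_on with
    | zero => simp
    | succ i ih =>
      intro y hy
      rw [zpow_add_one, mul_smul, mul_smul, ih _ (inv v hv y hy), hu.2 y hy]
    | pred i ih =>
      intro y hy
      rw [zpow_sub_one, mul_smul, mul_smul, ih _ (inv _ (inv_mem hv) y hy)]
      congr 1
      rw [eq_inv_smul_iff, ← hu.2 _ (inv _ (inv_mem hv) y hy), smul_inv_smul]
  have K : Ker C (orbF M x) ≤ Ker R (orbF R x) := fun u hu => by
    obtain ⟨u1, u2⟩ := mem_ker.1 hu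
    refine mem_ker.2 ⟨hM u1.1, fun y hy => ?_⟩
    obtain ⟨g, hg, rfl⟩ := mem_orbF.1 hy
    obtain ⟨i, h, hh, rfl⟩ := RS hg
    rw [mul_smul, cz u u1 i _ (mem_orbF.2 ⟨h, hM hh, rfl⟩), u2 _ (mem_orbF.2 ⟨h, hh, rfl⟩)]
  rw [c1]
  exact o.trans (Nat.mul_le_mul_right _ (Subgroup.card_le_of_le K))

end H1.KcCnt
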