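import Cfsg.Agent.H68.OuSpec

/-! ORE4 (blueprints/ORE4.md), jobs M and C: the cyclic hermitian model. -/

set_option autoImplicit false

namespace H1.OuMC

open Polynomial Module H53 H60.Ore H68.Ou
open H59 (perp mem_perp form_smul_left form_smul_right)

universe u

theorem jobM : JobM.{u} := fun F _ σ f m c hσ hf hm hc hd => by
  obtain ⟨τ, t1, t2, t3⟩ := exists_invol hσ.inv hf.c0 hf.sd
  set x := AdjoinRoot.root f with hx
  let φ : F[X] →ₗ[F] F := σ c • lcoeff F 0 + c • lcoeff F (2 * m)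
  have hφ : ∀ p, φ p = σ c * p.coeff 0 + c * p.coeff (2 * m) := fun p => by simp [φ]
  let l0 := φ ∘ₗ AdjoinRoot.modByMonicHom hf.mon
  have hl : ∀ p : F[X], p.natDegree ≤ 2 * m →
      l0 (AdjoinRoot.mk f p) = σ c * p.coeff 0 + c * p.coeff (2 * m) := fun p hp => by
    rw [LinearMap.comp_apply, AdjoinRoot.modByMonicHom_mk, ← hφ]
    rcases hd with ⟨a, b⟩ | ⟨a, -⟩
    · have e := eq_C_of_natDegree_eq_zero (p := p /ₘ f)
        (by rw [natDegree_divByMonic _ hf.mon]; omega)
      rw [modByMonic_eq_sub_mul_div, e, mul_comm, C_mul', map_sub, map_smul, hφ f, ← a,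
        hf.mon.coeff_natDegree, mul_comm, b]
      simp
    · rw [(modByMonic_eq_self_iff hf.mon).2 (degree_lt_degree (by omega))]
  have hp : ∀ i ≤ 2 * m, l0 (x ^ i) = if i = 0 then σ c else if i = 2 * m then c else 0 :=
    fun i hi => by
    rw [hx, ← AdjoinRoot.mk_X, ← map_pow, hl _ (by simpa using hi), coeff_X_pow, coeff_X_pow]
    grind
  have rep : ∀ r, ∃ p : F[X], p.natDegree ≤ 2 * m ∧ p.degree < f.degree ∧
      r = AdjoinRoot.mk f p := fun r => by
    obtain ⟨p, rfl⟩ := AdjoinRoot.mk_surjective r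
    have d := degree_modByMonic_lt p hf.mon
    refine ⟨p %ₘ f, natDegree_le_iff_degree_le.2 (Order.le_of_lt_succ (d.trans_le ?_)), d,
      by rw [← AdjoinRoot.modByMonicHom_mk hf.mon, AdjoinRoot.mk_leftInverse]⟩
    rw [degree_eq_natDegree hf.mon.ne_zero]
    change _ ≤ ((2 * m + 1 : ℕ) : WithBot ℕ)
    exact Nat.cast_le.2 (by omega)
  have ux : ∀ i, τ x ^ i * x ^ i = 1 := fun i => by rw [← mul_pow, t2, one_pow]
  let l := l0 ∘ₗ LinearMap.mulLeft F (x ^ m)
  have hL : ∀ r, l r = l0 (x ^ m * r) := fun _ => rfl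
  have N1 : ∀ p : F[X], p.degree < (2 * m : ℕ) → (∀ r, l0 (AdjoinRoot.mk f p * r) = 0) → p = 0 :=
    fun p d h => by
    by_contra p0
    have d' := (natDegree_lt_iff_degree_lt p0).2 d
    obtain ⟨k, hk⟩ : ∃ k, 2 * m = p.natDegree + (k + 1) := ⟨2 * m - p.natDegree - 1, by omega⟩
    have := h (AdjoinRoot.mk f (X ^ (k + 1)))
    rw [← map_mul, hl _ (by rw [natDegree_mul_X_pow _ p0]; omega), hk, coeff_mul_X_pow,
      mul_coeff_zero, coeff_X_pow] at this
    simp [hc, p0] at this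
  refine ⟨lamForm τ t1 l, isSF_lamForm τ t1 hσ.inv (by simp) t3 (fun r => ?_) fun a h => ?_,
    inv_lamForm_cyc τ t1 t2 l, fun j hj => ?_, ?_⟩
  · obtain ⟨p, d, -, e⟩ := rep (x ^ m * r)
    have e' : r = τ x ^ m * AdjoinRoot.mk f p := by rw [← e, ← mul_assoc, ux, one_mul]
    rw [one_mul, hL r, e, e', ← AdjoinRoot.aeval_eq, aeval_eq_sum_range' (Nat.lt_succ_of_le d),
      map_mul, map_pow, t3, hL, map_sum τ, Finset.mul_sum, Finset.mul_sum, map_sum, map_sum,
      map_sum]
    refine Finset.sum_congr rfl fun i hi => ?_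
    obtain ⟨k, hk⟩ := Nat.exists_eq_add_of_le (Nat.le_of_lt_succ (Finset.mem_range.1 hi))
    have : x ^ m * (x ^ m * τ x ^ i) = x ^ k := by
      rw [← mul_assoc, ← pow_add, ← two_mul, hk, pow_add, mul_right_comm, mul_comm (x ^ i), ux,
        one_mul]
    rw [Algebra.smul_def, map_mul τ, t1, ← Algebra.smul_def, ← Algebra.smul_def, mul_smul_comm,
      mul_smul_comm, map_pow, this, map_smul, map_smul, hp _ (by omega), hp _ (by omega),
      smul_eq_mul, smul_eq_mul, map_mul]
    have := hσ.inv c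
    have := map_zero σ
    grind
  · replace h : ∀ r, l0 (a * r) = 0 := fun r => by
      rw [← h (τ x ^ m * r), hL, mul_left_comm, ← mul_assoc (x ^ m), mul_comm (x ^ m), ux, one_mul]
    obtain ⟨p, d, d', rfl⟩ := rep a
    by_contra a0
    have p0 : p ≠ 0 := by rintro rfl; simp at a0
    have d1 : p.natDegree = 2 * m := d.antisymm (not_lt.1 fun e =>
      p0 (N1 p ((natDegree_lt_iff_degree_lt p0).1 e) h))
    have d2 := natDegree_lt_natDegree p0 d'
    obtain ⟨a, b⟩ := hd.resolve_left fun e => by omega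
    have mq := monic_mul_leadingCoeff_inv p0
    have dq : (p * C p.leadingCoeff⁻¹).natDegree = 2 * m := by
      rw [natDegree_mul_leadingCoeff_inv _ p0, d1]
    have hq : ∀ r, l0 (AdjoinRoot.mk f (p * C p.leadingCoeff⁻¹) * r) = 0 := fun r => by
      rw [map_mul (AdjoinRoot.mk f), mul_assoc, h]
    generalize p * C p.leadingCoeff⁻¹ = q at mq dq hq
    have e := modByMonic_add_div f q
    rw [N1 (f %ₘ q) (by rw [← dq, ← degree_eq_natDegree mq.ne_zero]; exact degree_modByMonic_lt _ mq)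
      fun r => by
        rw [modByMonic_eq_sub_mul_div, map_sub, AdjoinRoot.mk_self, zero_sub,
          map_mul (AdjoinRoot.mk f), neg_mul, mul_assoc, map_neg, hq, neg_zero], zero_add] at e
    have e1 := (mq.of_mul_monic_left (e ▸ hf.mon)).eq_X_add_C
      (by rw [natDegree_divByMonic _ mq]; omega)
    generalize (f /ₘ q).coeff 0 = t at e1
    have e2 := hq 1
    rw [mul_one, hl _ dq.le, ← dq, mq.coeff_natDegree] at e2
    rw [e1] at e
    refine b (-t) ?_ (by rw [← e]; simp)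
    rw [← e, mul_coeff_zero]
    simp only [coeff_add, coeff_X_zero, coeff_C_zero, zero_add]
    linear_combination (-t) * e2
  · rw [lamForm_apply, map_one, one_mul, hL, ← pow_add, hp _ (by omega)]
    grind
  · rw [lamForm_apply, map_one, one_mul, hL, ← pow_add, hp _ (by omega)]
    grind

theorem cyc_pow {F : Type u} [Field F] (f : F[X]) (i : ℕ) :
    (cyc f ^ i) 1 = AdjoinRoot.root f ^ i := by
  induction i with
  | zero => simp
  | succ i ih => rw [pow_succ', End.mul_apply, ih, cyc_apply, pow_succ']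

theorem jobC (hK : JobK.{u}) : JobC.{u} := fun F _ σ f κ hσ hf hn hκ ho => by
  have := finite_adjoinRoot hf.mon.ne_zero
  have dim := finrank_adjoinRoot hf.mon.ne_zero
  obtain ⟨k, hk⟩ : ∃ k, f.natDegree = 2 * (k + 1) ∨ f.natDegree = 2 * (k + 1) + 1 :=
    ⟨f.natDegree / 2 - 1, by omega⟩
  obtain ⟨c, hc, h1, h2⟩ : ∃ c, c ≠ 0 ∧ (f.natDegree = 2 * (k + 1) → f.coeff 0 * σ c = -c) ∧
      (f.natDegree = 2 * (k + 1) + 1 → κ * c = f.coeff 0 * σ c) := by
    rcases hk with hk | hk
    · obtain ⟨c, a, b⟩ := H59.exists_div_eq_of_norm_one hσ.ne hσ.inv hf.mu.neg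
      exact ⟨c, a, fun _ => by linear_combination b, fun _ => by omega⟩
    · obtain ⟨c, a, b⟩ := H59.exists_div_eq_of_norm_one hσ.ne hσ.inv (hf.mu.div hκ)
      refine ⟨c, a, fun _ => by omega, fun _ => ?_⟩
      conv_lhs => rw [b, ← mul_assoc, mul_div_cancel₀ _ hκ.ne]
  obtain ⟨B, hB, hI, b1, b2⟩ := jobM F σ f (k + 1) c hσ hf (by omega) hc
    (hk.imp (fun e => ⟨e, h1 e⟩) fun e => ⟨e, fun κ' a => by
      rw [mul_right_cancel₀ hc (a.trans (h2 e).symm)]
      exact ho ⟨k + 1, e⟩⟩)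
  set x := AdjoinRoot.root f with hx
  set L := ch (cyc f) 1 (k + 1) with hL
  have mem : ∀ i < k + 1, x ^ i ∈ L := fun i hi => cyc_pow f i ▸ pow_mem_ch _ _ hi
  have pp : ∀ y, y ∈ perp B L ↔ ∀ i < k + 1, B (x ^ i) y = 0 := fun y =>
    ⟨fun h i hi => h _ (mem i hi), fun h => H59.mem_perp_span.2 (by
      rintro _ ⟨i, rfl⟩; simp only [cyc_pow]; exact h i i.2)⟩
  have sh : ∀ y z, B (x * y) (x * z) = B y z := hI
  have sh' : ∀ i j, B (x ^ i) (x ^ (i + j)) = B 1 (x ^ j) := fun i j => by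
    induction i with
    | zero => simp
    | succ i ih => rw [add_right_comm, pow_succ', pow_succ', sh, ih]
  have iso : ∀ u ∈ L, ∀ w ∈ L, B u w = 0 := fun u hu w hw => by
    refine (Submodule.span_le.2 ?_ : L ≤ perp B L) hw u hu
    rintro _ ⟨j, rfl⟩
    simp only [cyc_pow]
    refine (pp _).2 fun i hi => ?_
    rcases le_total i j with e | e <;> obtain ⟨d, e⟩ := Nat.exists_eq_add_of_le e
    · rw [e, sh', b1 _ (by omega)]
    · rw [hB.eq_zero_comm, e, sh', b1 _ (by omega)]
  have dL : finrank F L = k + 1 := by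
    have le : k + 1 ≤ (AdjoinRoot.powerBasis hf.mon.ne_zero).dim := by
      rw [AdjoinRoot.powerBasis_dim]; omega
    have := (AdjoinRoot.powerBasis hf.mon.ne_zero).basis.linearIndependent.comp
      (Fin.castLE le) (Fin.castLE_injective _)
    have e : (fun i : Fin (k + 1) => (cyc f ^ (i : ℕ)) 1) = _ ∘ Fin.castLE le := funext fun i =>
      (cyc_pow f i).trans ((AdjoinRoot.powerBasis hf.mon.ne_zero).basis_eq_pow (i.castLE le)).symm
    rw [hL, ch, e, finrank_span_eq_card this, Fintype.card_fin]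
  have nm : x ^ (k + 1) ∉ L := fun e => hc (by
    rw [← b2, ← iso _ (mem 0 (by omega)) _ e, pow_zero])
  refine ⟨AdjoinRoot f, _, _, this, B, cyc f, L, hB, hI, (edc_eq hf.mon.ne_zero).symm, ?_,
    x ^ k, mem k (by omega), by rwa [cyc_apply, ← pow_succ'], fun u hu => ?_⟩
  · rcases hk with hk | hk
    · exact Fr.of_even hB iso (by omega)
    have dp := hB.finrank_add_finrank_perp L
    have le : L ≤ perp B L := fun w hw u hu => iso u hu w hw
    obtain ⟨ν0, n1, n2⟩ := SetLike.exists_of_lt (lt_of_le_of_ne le fun e => by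
      rw [← e] at dp; omega)
    obtain ⟨ν, n1, n2, n3⟩ : ∃ ν ∈ perp B L, ν ∉ L ∧ B 1 (x * ν) = 0 :=
      ⟨ν0 - (B 1 (x * ν0) / c) • x ^ k, sub_mem n1 (le (L.smul_mem _ (mem k (by omega)))),
        fun e => n2 (by simpa using add_mem e (L.smul_mem (B 1 (x * ν0) / c) (mem k (by omega)))),
        by rw [mul_sub, mul_smul_comm, ← pow_succ', map_sub, map_smul, b2, smul_eq_mul,
          div_mul_cancel₀ _ hc, sub_self]⟩
    have e : perp B L = L ⊔ Submodule.span F {ν} := (Submodule.eq_of_le_of_finrank_eq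
      (sup_le le ((Submodule.span_singleton_le_iff_mem _ _).2 n1))
      (by rw [Submodule.finrank_sup_span_singleton n2]; omega)).symm
    have n4 : x * ν ∈ perp B L := (pp _).2 fun i hi => by
      rcases i with _ | i
      · rwa [pow_zero]
      · rw [pow_succ', sh, (pp _).1 n1 i (by omega)]
    rw [e] at n4
    obtain ⟨u, hu, _, hw, n5⟩ := Submodule.mem_sup.1 n4
    obtain ⟨t, rfl⟩ := Submodule.mem_span_singleton.1 hw
    have fr : Fr B (cyc f) L t := ⟨iso, ν, e, by rwa [cyc_apply, ← n5, add_sub_cancel_right]⟩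
    have := (hK F _ σ B (cyc f) 1 (k + 1) t hσ hB hI (by omega) fr dL (by rwa [cyc_pow])).2
    rw [cyc_pow, b2, det_eq_dt, charpoly_cyc hf.mon, dt, dim, hk, Nat.add_sub_cancel_left, pow_one,
      pow_succ, pow_mul] at this
    rwa [← mul_right_cancel₀ hc (show t * c = κ * c by linear_combination this - h2 hk)]
  · induction hu using Submodule.span_induction with
    | mem _ h =>
      obtain ⟨i, rfl⟩ := h
      simp only [cyc_pow]
      by_cases e : (i : ℕ) = k
      · exact ⟨1, by simp [e, hx]⟩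
      · exact ⟨0, by
          rw [zero_smul, sub_zero, cyc_apply, ← pow_succ']; exact mem _ (by omega)⟩
    | zero => exact ⟨0, by simp⟩
    | add y z _ _ a b =>
      obtain ⟨s, a⟩ := a
      obtain ⟨t, b⟩ := b
      exact ⟨s + t, by rw [add_smul, add_sub_add_comm, map_add]; exact add_mem a b⟩
    | smul s y _ a =>
      obtain ⟨t, a⟩ := a
      exact ⟨s * t, by rw [mul_smul, ← smul_sub, map_smul]; exact L.smul_mem _ a⟩

end H1.OuMC
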