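/- ORE tower, chapter 1: jobs AB and U (conjugacy of involutions fixing a subspace). -/
import Cfsg.Agent.H56.OreSpec
import Cfsg.Agent.H60.Types

set_option autoImplicit false

namespace H1.Ore

open Module QuadraticMap H56 H58 H60 H56.Ore

universe u

variable {F V : Type*} [Field F] [AddCommGroup V] [Module F V] [FiniteDimensional F V]
  {Q : QuadraticForm F V}

theorem jobAB : JobAB.{u} := by
  intro F V _ _ _ _ _ Q hQ h2 Y U c hY hd
  have nY : Nondeg Q Y := fun x hx h => Submodule.disjoint_def.1 hY x hx h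
  have h1 := finrank_perp hQ U
  have h3 := Submodule.finrank_sup_add_finrank_inf_eq Y (perp Q U)
  have h4 := Submodule.finrank_le (Y ⊔ perp Q U)
  obtain ⟨Z, hZ⟩ : ∃ Z, Z = Y ⊓ perp Q U := ⟨_, rfl⟩
  rw [← hZ] at h3 ⊢
  have hZY : Z ≤ Y := hZ ▸ inf_le_left
  have h5 := nY.finrank_inf_perp_le hQ hZY
  obtain ⟨C, hC⟩ := Submodule.exists_isCompl (Z ⊓ perp Q Z)
  have h6 : Z ⊓ perp Q Z ⊔ C ⊓ Z = Z := by
    rw [← sup_inf_assoc_of_le _ inf_le_left, hC.sup_eq_top, top_inf_eq]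
  have h7 := finrank_sup_le (Z ⊓ perp Q Z) (C ⊓ Z)
  have h8 := Submodule.finrank_mono (inf_le_inf_right (perp Q Z) hZY)
  rw [h6] at h7
  have nC : Nondeg Q (C ⊓ Z) := fun x hx h => Submodule.disjoint_def.1 hC.disjoint x ⟨hx.2, fun w hw => by
    obtain ⟨a, ha, b, hb, rfl⟩ := Submodule.mem_sup.1 (h6.ge hw)
    change polar Q (a + b) x = 0
    rw [polar_add_left, h b hb, pc (ha.2 x hx.2), add_zero]⟩ hx.1
  obtain ⟨a, ha⟩ := exists_Q_eq nC.restrict (by omega) c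
  exact ⟨a, a.2.2, ha⟩

theorem witt_ker (hQ : Q.polarBilin.Nondegenerate) {W : Type*} [AddCommGroup W] [Module F W]
    (a b : W →ₗ[F] V) (hk : ∀ w, a w = 0 ↔ b w = 0) (h : ∀ w, Q (b w) = Q (a w)) :
    ∃ g : O Q, ∀ w, g (a w) = b w := by
  obtain ⟨g, hg⟩ := witt_maps hQ ((LinearMap.ker a).liftQ a le_rfl)
    ((LinearMap.ker a).liftQ b fun w => (hk w).1)
    (LinearMap.ker_eq_bot.1 (Submodule.ker_liftQ_eq_bot _ _ _ le_rfl))
    (LinearMap.ker_eq_bot.1 (Submodule.ker_liftQ_eq_bot _ _ _ fun w => (hk w).2)) fun w => by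
      obtain ⟨w, rfl⟩ := Submodule.Quotient.mk_surjective _ w
      exact h w
  exact ⟨g, fun w => hg (Submodule.Quotient.mk w)⟩

omit [FiniteDimensional F V] in
theorem two_cancel (h2 : (2 : F) ≠ 0) {x y : V} (h : x + x = y + y) : x = y :=
  smul_right_injective V h2 (by simpa only [two_smul] using h)

/-- An isometry carrying the `-1`-space of `s` onto that of `t` conjugates `s` to `t`. -/
theorem conj_of_mov (hQ : Q.polarBilin.Nondegenerate) (h2 : (2 : F) ≠ 0) {s t k : O Q}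
    (hs : s * s = 1) (ht : t * t = 1) (h1 : ∀ x ∈ s.mov, k x ∈ t.mov)
    (h3 : ∀ y ∈ t.mov, ∃ x ∈ s.mov, k x = y) : k * s = t * k := O.ext fun v => two_cancel h2 <| by
  have e1 : ∀ v, s (s v) = v := DFunLike.congr_fun hs
  have e2 : ∀ v, t (t v) = v := DFunLike.congr_fun ht
  have h4 : t (k (s v + v)) = k (s v + v) := O.mem_fix.1 (t.perp_mov hQ ▸ fun w hw => by
    obtain ⟨x, hx, rfl⟩ := h3 w hw
    obtain ⟨y, rfl⟩ := O.mem_mov.1 hx
    change polar Q _ _ = 0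
    rw [k.map_polar, s.polar_sub_fix y (by rw [map_add, e1, add_comm])])
  obtain ⟨y, hy⟩ := O.mem_mov.1 (h1 _ (s.sub_mem_mov v))
  have h5 : t (k (s v - v)) = -k (s v - v) := by rw [← hy, map_sub, e2, neg_sub]
  simp only [map_add, map_sub, O.mul_apply] at h4 h5 ⊢
  linear_combination (norm := module) h5 - h4

theorem witt_fix (hQ : Q.polarBilin.Nondegenerate) (h2 : (2 : F) ≠ 0) {s : O Q} (hs : s * s = 1)
    {W : Type*} [AddCommGroup W] [Module F W] (p p' : W →ₗ[F] V) (h1 : ∀ w, s (p w) = p w)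
    (h1' : ∀ w, s (p' w) = p' w) (hk : ∀ w, p w = 0 ↔ p' w = 0) (h : ∀ w, Q (p' w) = Q (p w)) :
    ∃ k : O Q, k * s = s * k ∧ (∀ w, k (p w) = p' w) ∧ ∀ y, k (s y - y) = s y - y := by
  have e1 : ∀ v, s (s v) = v := DFunLike.congr_fun hs
  have h3 : ∀ x y, s x = x → (x + (s y - y) = 0 ↔ x = 0 ∧ s y - y = 0) := fun x y hx =>
    ⟨fun e => by
      have e' := congrArg s e
      rw [map_add, map_sub, hx, e1, map_zero] at e'
      have : x = 0 := two_cancel h2 (by linear_combination (norm := module) e + e')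
      exact ⟨this, by rwa [this, zero_add] at e⟩, fun e => by rw [e.1, e.2, add_zero]⟩
  obtain ⟨k, hk⟩ := witt_ker hQ (p.coprod (s.lin - LinearMap.id)) (p'.coprod (s.lin - LinearMap.id))
    (fun w => ((h3 _ w.2 (h1 w.1)).trans (and_congr_left' (hk _))).trans (h3 _ w.2 (h1' w.1)).symm)
    fun w => by
      change Q (p' w.1 + (s w.2 - w.2)) = Q (p w.1 + (s w.2 - w.2))
      rw [H56.Q_add, H56.Q_add, h, pc (s.polar_sub_fix _ (h1 _)), pc (s.polar_sub_fix _ (h1' _))]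
  have h4 : ∀ y, k (s y - y) = s y - y := fun y => by simpa using hk (0, y)
  have h5 : ∀ x ∈ s.mov, k x = x := fun x hx => by obtain ⟨y, rfl⟩ := O.mem_mov.1 hx; exact h4 y
  exact ⟨k, conj_of_mov hQ h2 hs hs (fun x hx => (h5 x hx).symm ▸ hx) fun y hy => ⟨y, hy, h5 y hy⟩,
    fun w => by simpa using hk (w, 0), h4⟩

theorem nondeg_mov (hQ : Q.polarBilin.Nondegenerate) (h2 : (2 : F) ≠ 0) {s : O Q} (hs : s * s = 1) :
    Nondeg Q s.mov := fun x hx h => by
  have h1 : s x = x := O.mem_fix.1 (s.perp_mov hQ ▸ h)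
  obtain ⟨y, rfl⟩ := O.mem_mov.1 hx
  rw [map_sub, show s (s y) = y from DFunLike.congr_fun hs y] at h1
  exact two_cancel h2 (by linear_combination (norm := module) -h1)

theorem spinor_inv (hQ : Q.polarBilin.Nondegenerate) (h2 : (2 : F) ≠ 0) {s : O Q} (hs : s * s = 1)
    {ι : Type*} [Fintype ι] [DecidableEq ι] (b : Basis ι F s.mov) :
    spinor hQ s = sqcl (2 ^ Fintype.card ι * gram (Q.restrict s.mov) b) := by
  have e1 : ∀ v, s (s v) = v := DFunLike.congr_fun hs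
  have h1 : ∀ x : s.mov, s x = -x := fun x => by
    obtain ⟨y, hy⟩ := O.mem_mov.1 x.2
    rw [← hy, map_sub, e1, neg_sub]
  have h3 : ∀ c : ι → F, ∑ i, c i • (b i : V) = ((∑ i, c i • b i : s.mov) : V) := fun c => by simp
  rw [spinor_of_isBasisMod hQ s (x := fun i => (b i : V)) ⟨fun c hc => ?_, fun v => ?_⟩, gram,
    ← Matrix.det_smul]
  · congr 2
    ext i j
    simp [h1, two_mul, polar_add_left, polar_restrict]
  · rw [h3, O.mem_fix, h1] at hc
    exact Fintype.linearIndependent_iff.1 b.linearIndependent c (Subtype.ext (two_cancel h2 (by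
      rw [Submodule.coe_zero, add_zero]; nth_rewrite 1 [← hc]; rw [neg_add_cancel])))
  · refine ⟨b.repr ((-2 : F)⁻¹ • ⟨_, s.sub_mem_mov v⟩), ?_⟩
    rw [h3, b.sum_repr, O.mem_fix]
    simp only [Submodule.coe_smul, map_sub, map_smul, e1]
    have : (2 : F)⁻¹ + 2⁻¹ = 1 := by field_simp; ring
    rw [inv_neg]
    linear_combination (norm := module) this • (v - s v)

/-- Involutions with the same rank and spinor norm are conjugate. -/
theorem exists_conj [Finite F] (hQ : Q.polarBilin.Nondegenerate) (h2 : (2 : F) ≠ 0) {s t : O Q}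
    (hs : s * s = 1) (ht : t * t = 1) (hr : s.rk = t.rk) (hθ : spinor hQ s = spinor hQ t) :
    ∃ k : O Q, k * s = t * k := by
  have n1 := (nondeg_mov hQ h2 hs).restrict
  have n2 := (nondeg_mov hQ h2 ht).restrict
  have g1 := gram_ne_zero n1 (finBasis F _)
  have g2 := gram_ne_zero n2 (finBasis F _)
  rw [spinor_inv hQ h2 hs (finBasis F _), spinor_inv hQ h2 ht (finBasis F _),
    sqcl_mul (pow_ne_zero _ h2) g1, sqcl_mul (pow_ne_zero _ h2) g2, Fintype.card_fin,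
    Fintype.card_fin, show (2 : F) ^ finrank F s.mov = 2 ^ finrank F t.mov from congrArg _ hr, mul_right_inj,
    sqcl_eq_iff_isSquare_mul g1 g2] at hθ
  obtain ⟨g, hg⟩ := exists_equiv_of_isSquare_gram h2 n1 n2 hr _ _ hθ
  obtain ⟨k, hk⟩ := witt_sub hQ s.mov (t.mov.subtype ∘ₗ g.toLinearMap) hg
    (t.mov.injective_subtype.comp g.injective)
  exact ⟨k, conj_of_mov hQ h2 hs ht (fun x hx => hk ⟨x, hx⟩ ▸ (g ⟨x, hx⟩).2) fun y hy =>
    ⟨_, (g.symm ⟨y, hy⟩).2, by rw [hk]; simp⟩⟩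

theorem jobU : JobU.{u} := by
  intro F V _ _ _ _ _ Q hQ h2 s t U hs ht hr hθ hB hE hA
  obtain ⟨h, hh⟩ := exists_conj hQ h2 hs ht hr hθ
  have e1 : ∀ v, s (s v) = v := DFunLike.congr_fun hs
  have e2 : ∀ v, s (h⁻¹ v) = h⁻¹ (t v) := fun v => by
    rw [eq_comm, O.inv_apply_eq, ← O.mul_apply, hh, O.mul_apply, O.apply_inv_apply]
  have e3 : ∀ u : U, polar Q (h⁻¹ u) (s (h⁻¹ u)) = polar Q (u : V) (s u) := fun u => by
    rw [e2, O.map_polar, hB u u.2 u u.2]
  obtain ⟨k1, a1, a2, a3⟩ := witt_fix hQ h2 hs ((s.lin + LinearMap.id) ∘ₗ U.subtype)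
    ((s.lin + LinearMap.id) ∘ₗ (h⁻¹).lin ∘ₗ U.subtype) (fun w => by simp [e1, add_comm])
    (fun w => by simp [e1, add_comm]) (fun w => by
      change s w + w = 0 ↔ s (h⁻¹ w) + h⁻¹ w = 0
      rw [e2, ← map_add, O.apply_eq_zero, add_eq_zero_iff_eq_neg, add_eq_zero_iff_eq_neg,
        (hE w w.2).2]) fun w => by
      change Q (s (h⁻¹ w) + h⁻¹ w) = Q (s w + w)
      rw [H56.Q_add, H56.Q_add, polar_comm, e3, polar_comm]; simp
  have hs' : O.negOne Q * s * (O.negOne Q * s) = 1 := O.ext fun v => by simp [e1]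
  obtain ⟨k2, b1, b2, b3⟩ := witt_fix hQ h2 hs' ((s.lin - LinearMap.id) ∘ₗ U.subtype)
    ((s.lin - LinearMap.id) ∘ₗ (h⁻¹).lin ∘ₗ U.subtype) (fun w => by simp [e1])
    (fun w => by simp [e1]) (fun w => by
      change s w - w = 0 ↔ s (h⁻¹ w) - h⁻¹ w = 0
      rw [e2, ← map_sub, O.apply_eq_zero, sub_eq_zero, sub_eq_zero, (hE w w.2).1]) fun w => by
      change Q (s (h⁻¹ w) - h⁻¹ w) = Q (s w - w)
      rw [H56.Q_sub, H56.Q_sub, polar_comm, e3, polar_comm]; simp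
  have b4 : k2 * s = s * k2 := O.ext fun v => by simpa using DFunLike.congr_fun b1 v
  obtain ⟨g, g1, g2⟩ : ∃ g : O Q, g * s = t * g ∧ ∀ u ∈ U, g u = u := by
    refine ⟨h * k1 * k2, by rw [mul_assoc, b4, ← mul_assoc, mul_assoc h, a1, ← mul_assoc, hh]; group,
      fun u hu => ?_⟩
    rw [O.mul_apply, O.mul_apply, eq_comm, ← O.inv_apply_eq]
    have c1 : k1 (s u + u) = s (h⁻¹ u) + h⁻¹ u := a2 ⟨u, hu⟩
    have c2 : k2 (s u - u) = s (h⁻¹ u) - h⁻¹ u := b2 ⟨u, hu⟩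
    have c3 : k2 (s u + u) = s u + u := by
      have := b3 (-u)
      simpa using this
    have c4 := congrArg k1 c2
    rw [a3] at c4
    rw [← c3] at c1
    simp only [map_add, map_sub] at c1 c4
    exact two_cancel h2 (by linear_combination (norm := module) c4 - c1)
  have key : ∀ g : O Q, g * s = t * g → (∀ u ∈ U, g u = u) → ∀ c : F, c ≠ 0 → ∃ g' : O Q,
      g' * s = t * g' ∧ (∀ u ∈ U, g' u = u) ∧ dickson hQ g' = -dickson hQ g ∧
        spinor hQ g' = spinor hQ g * sqcl c := fun g g1 g2 c hc => by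
    obtain ⟨a, ha, rfl, h3⟩ := hA c hc
    have h4 : refl Q (s a) = refl Q a := by
      rcases h3 with e | e <;> rw [e]
      rw [← neg_one_smul F a, refl_smul (by simp)]
    refine ⟨g * refl Q a, by rw [mul_assoc, ← h4, ← mul_refl, ← mul_assoc, g1, h4, mul_assoc],
      fun u hu => by rw [O.mul_apply, refl_apply_of_orth (pc (ha u hu)), g2 u hu],
      by rw [map_mul, dickson_refl hQ hc, mul_neg_one], by rw [map_mul, spinor_refl]⟩
  obtain ⟨g, g1, g2, g3⟩ : ∃ g : O Q, g * s = t * g ∧ (∀ u ∈ U, g u = u) ∧ dickson hQ g = -1 := by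
    rcases Int.units_eq_one_or (dickson hQ g) with e | e
    · obtain ⟨g', c1, c2, c3, -⟩ := key g g1 g2 1 one_ne_zero
      exact ⟨g', c1, c2, by rw [c3, e]⟩
    · exact ⟨g, g1, g2, e⟩
  obtain ⟨c, hc, e⟩ := sqcl_surjective (spinor hQ g)
  obtain ⟨g', c1, c2, c3, c4⟩ := key g g1 g2 c hc
  exact ⟨g', by rw [c3, g3, neg_neg], by rw [c4, e, SqCl.mul_self],
    by rw [c1, mul_inv_cancel_right], c2⟩

end H1.Ore
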