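/- ORE tower, chapter 1: jobs Hyp and Zas (spinor norms). -/
import Cfsg.Agent.H1.OreU

set_option autoImplicit false

namespace H1.Ore

open Module QuadraticMap H56 H58 H60 H56.Ore

universe u

theorem jobHyp : JobHyp.{u} := by
  intro F V _ _ _ _ _ Q hQ h2 s L hs hL hsL hp
  have e1 : ∀ v, s (s v) = v := DFunLike.congr_fun hs
  have n1 := (nondeg_mov hQ h2 hs).restrict
  have h1 : perp (Q.restrict s.mov) (L.comap s.mov.subtype) = L.comap s.mov.subtype := by
    refine le_antisymm (fun u hu => ?_) fun u hu w hw => ?_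
    · obtain ⟨y, hy⟩ := O.mem_mov.1 u.2
      have h3 := hp u fun x hx => by
        have h4 : polar Q (s x - x) u = 0 := by
          simpa [polar_restrict] using hu ⟨_, s.sub_mem_mov x⟩ (sub_mem (hsL x hx) hx)
        have h5 : polar Q (s x + x) u = 0 := by
          rw [← hy]; exact pc (s.polar_sub_fix y (by rw [map_add, e1, add_comm]))
        rw [polar_sub_left] at h4
        rw [polar_add_left] at h5
        exact mul_left_cancel₀ h2 (show 2 * polar Q x u = 2 * 0 by linear_combination h5 - h4)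
      have h4 : (u : V) = (-2 : F)⁻¹ • (s u - u) := by
        rw [eq_inv_smul_iff₀ (neg_ne_zero.2 h2), ← hy, map_sub, e1]; module
      exact (show (u : V) ∈ L from h4 ▸ L.smul_mem _ h3)
    · simpa [polar_restrict] using polar_eq_zero_of_ts hL _ hw _ hu
  have h3 := finrank_perp n1 (L.comap s.mov.subtype)
  rw [h1, ← two_mul] at h3
  have h4 := (isPlus_iff_isSquare h2 n1 h3.symm (finBasis F _)).1 ⟨_, h3.symm, fun u hu => hL u hu⟩
  have g1 := gram_ne_zero n1 (finBasis F _)
  have h5 : s.rk = 2 * finrank F (L.comap s.mov.subtype) := h3.symm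
  refine ⟨h5 ▸ even_two_mul _, ?_⟩
  rw [spinor_inv hQ h2 hs (finBasis F _), Fintype.card_fin, ← congrArg ((2 : F) ^ ·) h3, two_mul, pow_add,
    sqcl_mul_self_mul (pow_ne_zero _ h2), h5, Nat.mul_div_cancel_left _ two_pos, ← sqcl_pow, eq_comm,
    sqcl_eq_iff_isSquare_mul (by simp) g1]
  exact h4

theorem jobZas : JobZas.{u} := by
  intro F V _ _ _ _ _ Q hQ h2 c hc
  let b := finBasis F V
  have h1 : (O.negOne Q * c).fix = ⊥ := eq_bot_iff.2 fun x hx =>
    (LinearMap.equivOfDetNeZero _ hc).injective (show (c.lin + 1) x = (c.lin + 1) 0 by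
      have : -c x = x := O.mem_fix.1 hx
      rw [map_zero]; exact add_eq_zero_iff_neg_eq.2 this)
  have h3 : (Matrix.of fun i j => polar Q (b i - (O.negOne Q * c) (b i)) (b j)) =
      (LinearMap.toMatrix b b (c.lin + 1)).transpose * Matrix.of fun i j => polar Q (b i) (b j) := by
    ext i j
    have : b i - (O.negOne Q * c) (b i) = ∑ k, b.repr ((c.lin + 1) (b i)) k • b k := by
      rw [b.sum_repr]; simp [add_comm]
    rw [Matrix.of_apply, this, ← polarBilin_apply_apply, map_sum, LinearMap.sum_apply]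
    simp only [Matrix.mul_apply, LinearMap.toMatrix_apply, Matrix.transpose_apply, Matrix.of_apply,
      map_smul, LinearMap.smul_apply, polarBilin_apply_apply, smul_eq_mul]
  have g1 : (Matrix.of fun i j => polar Q (b i) (b j)).det ≠ 0 := gram_ne_zero hQ b
  have h4 : c = O.negOne Q * (O.negOne Q * c) := by rw [← mul_assoc, O.negOne_mul_self, one_mul]
  rw [h4, map_mul, spinor_negOne hQ h2 b, spinor_of_isBasisMod hQ _ (x := b) (h1 ▸ isBasisMod_bot b),
    h3, ← h4, Matrix.det_mul, Matrix.det_transpose, LinearMap.det_toMatrix, Fintype.card_fin,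
    sqcl_mul (pow_ne_zero _ h2) g1, sqcl_mul hc g1, sqcl_mul (pow_ne_zero _ h2) hc,
    mul_mul_mul_comm, SqCl.mul_self, mul_one]

end H1.Ore
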