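import Cfsg.Agent.H42.PnSpec

/-! PN tower (S3399): slots `Orb` and `DegN` (restriction to an invariant set). -/

set_option autoImplicit false
set_option linter.unusedSectionVars false

namespace H1.PnOrb
open Equiv MulAction Pointwise H2.Ln H42.PN

section
variable {α : Type} [Fintype α] [DecidableEq α]

/-- The action on an invariant set. -/
@[reducible] def act (H : Subgroup (Perm α)) (Δ : Finset α) (h : ∀ g ∈ H, ∀ a ∈ Δ, g a ∈ Δ) :
    MulAction H Δ where
  smul g a := ⟨g.1 a.1, h g.1 g.2 a.1 a.2⟩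
  one_smul _ := rfl
  mul_smul _ _ _ := rfl

end

theorem cj_sub {Γ : Type} [Group Γ] (K H : Subgroup Γ) (g : H) :
    cj (K.subgroupOf H) g = (cj K g).subgroupOf H := by
  ext x
  simp only [mem_cj, Subgroup.mem_subgroupOf, Subgroup.coe_mul, Subgroup.coe_inv]

theorem pro_sub {α : Type} [Fintype α] [DecidableEq α] {H K : Subgroup (Perm α)} (hK : K ≤ H)
    (h : Pro H K) : Pro ⊤ (K.subgroupOf H) := fun g _ => by
  obtain ⟨w, hw, e⟩ := h g g.2
  have h1 := cj_le hK g.2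
  refine ⟨⟨w, sup_le hK h1 hw⟩, ?_, by rw [cj_sub, cj_sub, e]⟩
  rw [cj_sub, ← Subgroup.subgroupOf_sup hK h1]
  exact hw

theorem jobOrb : Orb := by
  intro N ih α _ _ H K Δ s hN
  let _ := act H Δ s.inv
  have sm : ∀ (g : H) (a : Δ), ((g • a : Δ) : α) = g.1 a := fun _ _ => rfl
  have := ih H Δ (K.subgroupOf H) (by simpa using hN) ⟨fun a b => by
    obtain ⟨g, hg, e⟩ := s.tr a a.2 b b.2
    exact ⟨⟨g, hg⟩, Subtype.ext e⟩⟩ (pro_sub s.le s.pro) (by
    obtain ⟨a, ha, h1⟩ := s.mv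
    rw [mem_fp] at h1
    push Not at h1
    obtain ⟨k, hk, h2⟩ := h1
    exact ⟨⟨k, s.le hk⟩, hk, ⟨a, ha⟩, fun e => h2 (congrArg Subtype.val e)⟩)
  have e : Nat.card {b : Δ // ∀ k ∈ K.subgroupOf H, k • b = b} = (Δ ∩ fp K).card := by
    rw [← Nat.card_eq_finsetCard]
    refine Nat.card_congr ⟨fun b => ⟨b.1.1, Finset.mem_inter.2 ⟨b.1.2, mem_fp.2 fun k hk =>
      congrArg Subtype.val (b.2 ⟨k, s.le hk⟩ hk)⟩⟩, fun b => ⟨⟨b.1, (Finset.mem_inter.1 b.2).1⟩,
      fun k hk => Subtype.ext (mem_fp.1 (Finset.mem_inter.1 b.2).2 k.1 hk)⟩, fun _ => rfl,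
      fun _ => rfl⟩
  rw [e] at this
  simpa using this

theorem jobDegN (hd : Deg) : DegN := by
  intro α _ _ M U h4 hi t4
  let _ := act M U fun g hg => sm_eq_iff.1 (hi g hg)
  let φ : M →* Perm U := MulAction.toPermHom M U
  have sm : ∀ (g : M) (a : U), ((φ g a : U) : α) = g.1 a := fun _ _ => rfl
  have ker : φ.ker = (fx M U).subgroupOf M := by
    ext x
    rw [MonoidHom.mem_ker, Subgroup.mem_subgroupOf, mem_fx]
    exact ⟨fun h => ⟨x.2, fun a ha => by rw [← sm x ⟨a, ha⟩, h]; rfl⟩,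
      fun h => Equiv.ext fun a => Subtype.ext (h.2 a a.2)⟩
  have nd : ∀ l : List U, l.Nodup → (l.map Subtype.val).Nodup := fun l h =>
    h.map Subtype.val_injective
  rcases hd U φ.range (by simpa using h4) (fun a _ b _ c _ d _ a' _ b' _ c' _ d' _ h1 h2 => by
    obtain ⟨g, hg, e1, e2, e3, e4⟩ := t4 a a.2 b b.2 c c.2 d d.2 a' a'.2 b' b'.2 c' c'.2 d' d'.2
      (nd _ h1) (nd _ h2)
    exact ⟨φ ⟨g, hg⟩, ⟨_, rfl⟩, Subtype.ext e1, Subtype.ext e2, Subtype.ext e3, Subtype.ext e4⟩)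
    with h | h
  · left
    have : Nontrivial U := Fintype.one_lt_card_iff_nontrivial.1 (by simp; omega)
    have h1 := two_mul_nat_card_alternatingGroup (α := U)
    have h2 := Subgroup.card_le_of_le h
    rw [Subgroup.relIndex, ← ker, Subgroup.index_ker]
    rw [Nat.card_perm, Nat.card_eq_finsetCard] at h1
    omega
  · right
    intro x hx h0
    have h1 := h (φ ⟨x, hx⟩) ⟨_, rfl⟩ fun e => h0 (by
      have : (⟨x, hx⟩ : M) ∈ φ.ker := e
      rwa [ker] at this)
    have e : (φ ⟨x, hx⟩).support.card = (U ∩ x.support).card := by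
      rw [← Finset.card_map (Function.Embedding.subtype _)]
      congr 1
      ext a
      simp only [Finset.mem_map, Perm.mem_support, Function.Embedding.coe_subtype, Finset.mem_inter]
      exact ⟨fun ⟨b, h1, h2⟩ => h2 ▸ ⟨b.2, fun e => h1 (Subtype.ext e)⟩,
        fun ⟨h1, h2⟩ => ⟨⟨a, h1⟩, fun e => h2 (congrArg Subtype.val e), rfl⟩⟩
    rw [e] at h1
    simpa using h1

end H1.PnOrb
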