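import Cfsg.Agent.H90.Q3Spec

/-! Tower U4, chapter q = 3, slot Hy: the hypotheses on the group on `W`, the letters as automorphisms. -/

set_option autoImplicit false

open Subgroup H28.U4 H77 Cfsg H90.Q3

namespace H1.Q3Hy

/-- `1 + i` -/
def s1 : F9ˣ := ⟨⟨1, 1⟩, ⟨2, 1⟩, by decide, by decide⟩

theorem a0_eq : Jp a0 = sdW T9 (SemidirectProduct.inl (t2 s1)) := Equiv.ext fun w => by
  rw [Jp_apply (by decide), sdW_apply]
  change _ = ((⟨1, 1⟩ : F9) ^ 2 * w.1, (⟨1, 1⟩ : F9) ^ 2 * ((⟨2, 1⟩ : F9) * star (⟨2, 1⟩ : F9)) * w.2)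
  revert w; decide +kernel

theorem no_tab : ∀ x : V, Ro x → pL x → x.x3 ≠ 0 → ∀ y : V, Ro y → pL y → dot x y = 1 → y ≠ ng x →
    (∀ i, Jf x (Jf y (Jf x (Jf y (Jf x (Jf y (bs i)))))) = bs i) ∧ (Jf x (Jf y (bs 0))).2.im ≠ 0 := by
  decide +kernel

theorem pl_Jp {x : V} (h : Ro x) (k : pL x) : PL (Jp x) := fun w hw => by
  rw [h.apply]
  unfold pL at k
  ext <;> simp [Jf, hw, k]

theorem jobHy : JobHy := by
  intro G h ht
  have r0 : Jp a0 ∈ G := a0_eq ▸ ht _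
  have r1 : Jp a1 ∈ G := by
    have : Jp (ng a1) ∈ G := (G.mul_mem_cancel_right r0).1 (ub_eq ▸ h.uu 1 (map_one _))
    rwa [← Ro.inv (by decide), inv_mem_iff] at this
  have pel : ∀ g ∈ G, PL g → g ^ 3 = 1 → ∃ b, T9.σ b = b ∧ g = ub b := fun g hg p e =>
    h.pel g hg p ⟨1, by rwa [pow_one]⟩
  refine ⟨⟨h.add, fun g hg => ?_, r0, r1, pel⟩, fun x k => k.1, fun x k => k.ng, fun x y k l => k.rf l,
    ⟨by decide, r0⟩, ⟨by decide, r1⟩, fun x y hx hy px py d n => by_contra fun x3 => ?_⟩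
  · obtain ⟨ζ, z0, z1, e, -⟩ := h.form g hg
    have ad : Ad g := h.add g hg
    have b1 : bf T9 (bs 2) (bs 0) = 1 := by decide +kernel
    have b2 : bf T9 (bs 2) (-bs 0) = -1 := by decide +kernel
    have e1 := e (bs 2) (bs 0)
    have e2 := e (bs 2) (-bs 0)
    have bn : ∀ w w' : W, bf T9 w (-w') = -bf T9 w w' := fun w w' => by simp [bf]; ring
    rw [b1] at e1
    rw [b2, ad.neg, bn, e1] at e2
    have v : ∀ w w' : W, bf T9 w w' = 0 ∨ bf T9 w w' = 1 ∨ bf T9 w w' = -1 := fun w w' => by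
      rw [bf_eq]
      generalize w.2.re * w'.1.re + w.2.im * w'.1.im - w.1.re * w'.2.re - w.1.im * w'.2.im = t
      revert t; decide
    rcases v (g (bs 2)) (g (bs 0)) with k | k | k <;> rw [e1] at k
    · exact absurd (z1 1 (map_one _) k) one_ne_zero
    · refine .inl fun w w' => ?_
      rw [e]
      rcases v w w' with l | l | l <;> rw [l]
      exacts [z0, k, by rw [← e2, k]]
    · refine .inr fun w w' => ?_
      rw [e]
      rcases v w w' with l | l | l <;> rw [l]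
      exacts [by rw [z0, neg_zero], k, by rw [← e2, k]]
  · obtain ⟨t1, t2⟩ := no_tab x hx.1 px x3 y hy.1 py d n
    have m := mul_mem hx.2 hy.2
    obtain ⟨b, hb, e⟩ := pel _ m ((pl_Jp hx.1 px).mul (pl_Jp hy.1 py)) (Equiv.ext
      (Ad.ext (h.add _ (pow_mem m 3)) (fun _ _ => rfl) fun i => by
        simpa only [pow_succ, pow_zero, one_mul, Equiv.Perm.mul_apply, hx.1.apply, hy.1.apply,
          Equiv.Perm.one_apply] using t1 i))
    have := Equiv.congr_fun e (bs 0)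
    rw [Equiv.Perm.mul_apply, hx.1.apply, hy.1.apply] at this
    rw [this, ub_apply] at t2
    have i := congrArg QuadraticAlgebra.im hb
    rw [σ_im] at i
    refine t2 ?_
    have : b.im = 0 := by revert i; generalize b.im = t; revert t; decide
    simp [bs, QuadraticAlgebra.im_mul, this]

theorem th_tab : ∀ a ∈ NL, (⟨a.x4, a.x3⟩ : F9) ≠ 0 ∧ ∀ w : W, Jf a w =
    (⟨a.x4, a.x3⟩ * star w.1, ⟨a.x4, a.x3⟩ * (1 * star 1) * star w.2 +
      ⟨0, -a.x0⟩ * ⟨a.x4, a.x3⟩ * star (⟨a.x4, a.x3⟩ * star w.1)) := by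
  decide +kernel

theorem jobTh : JobTh := by
  intro a ha
  obtain ⟨n, e⟩ := th_tab a ha
  obtain ⟨θ, -, hθ⟩ := exists_thG (T := T9) (⟨0, -a.x0⟩ * ⟨a.x4, a.x3⟩) fun h => absurd h (by decide)
  refine ⟨θ * sdH T9 ⟨(Units.mk0 _ n, 1), starRingAut⟩, fun u hu => ⟨?_, ?_⟩⟩
  · rw [mem_sQ, MulAut.mul_apply, (hθ _).1, sdH_apply, (sd_zero _ u).2.1]
    exact hu
  · rw [MulAut.mul_apply, (hθ _).2, sdH_apply, sd_π, Jp_apply (NL_ne a ha), e]
    rfl

end H1.Q3Hy
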