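import Cfsg.Agent.H30.SQSpec

/-! Tower SQ (S4132), slot `S5`. -/

set_option autoImplicit false

open Cfsg Subgroup

namespace H1.SQS5

open H30.SQ

universe u

variable {G : Type*} [Group G] {T U₁ : Subgroup G} {n : ℕ} {w v c z : G}

theorem br_mul (h : Br T w) {a b : G} (ha : a ∈ T) (hb : b ∈ T) :
    Commute (a * b) w ↔ (Commute a w ↔ Commute b w) := by
  refine ⟨fun k => ⟨fun k1 => ?_, fun k1 => ?_⟩, fun k => ?_⟩
  · simpa using k1.inv_left.mul_left k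
  · simpa using k.mul_left k1.inv_left
  · rcases h.2 a ha b hb with k1 | k1 | k1
    · exact k1.mul_left (k.1 k1)
    · exact (k.2 k1).mul_left k1
    · exact k1

theorem br_cm (h : Br T w) {a b : G} (ha : a ∈ T) (hb : b ∈ T) : Commute (a⁻¹ * b * a * b⁻¹) w := by
  rw [br_mul h (mul_mem (mul_mem (inv_mem ha) hb) ha) (inv_mem hb),
    br_mul h (mul_mem (inv_mem ha) hb) ha, br_mul h (inv_mem ha) hb, Commute.inv_left_iff,
    Commute.inv_left_iff]
  tauto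

theorem cm_gen (S : ST T U₁ n w v c z) (K : KT T U₁ n w v c z) {s d : G} (hs : s ∈ T)
    (hd : d ∈ ({w, v} : Set G)) : ∃ j : ℤ, s * d * s⁻¹ * d⁻¹ = c ^ j := by
  rcases hd with rfl | rfl
  · rcases K.jw s hs with e | e
    · exact ⟨0, by simp [e]⟩
    · exact ⟨1, by rw [e, S.wc.eq]; simp⟩
  · obtain ⟨j, e⟩ := K.jv s hs
    exact ⟨j, by simp [e]⟩

theorem inv_eq (K : KT T U₁ n w v c z) {j : ℤ} (h1 : c ^ j ≠ 1) (h2 : c ^ j * c ^ j = 1) :
    c ^ j = z := by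
  obtain ⟨k, hk⟩ := K.uq j h1
  rcases Nat.even_or_odd' k with ⟨m, rfl | rfl⟩
  · rw [pow_mul, sq, h2, one_pow] at hk
    exact absurd hk.symm K.z1
  · rwa [pow_succ, pow_mul, sq, h2, one_pow, one_mul] at hk

theorem core [Finite G] (H : Hy T n) (S : ST T U₁ n w v c z) (K : KT T U₁ n w v c z)
    {R T' : Subgroup G} {τ : G} (h1 : R ≤ T) (h2 : R ≤ T') (h3 : τ ∈ T')
    (h4 : ∀ x ∈ T', x ^ (2 * n) = 1) (hw : w ∈ R) (hv : v ∈ R) (h5 : τ ∈ normalizer (R : Set G))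
    (h6 : τ * τ ∈ R) : Commute τ z := by
  by_contra hz
  have gR : ∀ d ∈ ({w, v} : Set G), d ∈ R := by rintro d (rfl | rfl) <;> assumption
  have g0 : ∀ d ∈ ({w, v} : Set G), ∀ d' ∈ ({w, v} : Set G), Commute d (τ * d' * τ⁻¹) := by
    intro d hd d' hd'
    obtain ⟨j, e1⟩ := cm_gen S K (h1 ((mem_normalizer_iff.1 h5 _).1 (gR d' hd'))) hd
    obtain ⟨k, e2⟩ := cm_gen S K (h1 ((mem_normalizer_iff''.1 h5 _).1 (gR d hd))) hd'
    have e3 : τ * c ^ k * τ⁻¹ = c ^ (-j) := by rw [zpow_neg, ← e1, ← e2]; group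
    by_cases h0 : c ^ k = 1
    · rw [h0, mul_inv_eq_one, mul_inv_eq_iff_eq_mul] at e2
      show d * (τ * d' * τ⁻¹) = τ * d' * τ⁻¹ * d
      calc d * (τ * d' * τ⁻¹) = τ * (τ⁻¹ * d * τ * d') * τ⁻¹ := by group
        _ = _ := by rw [e2]; group
    · obtain ⟨b, hb⟩ := K.uq k h0
      have e4 : τ * z * τ⁻¹ = c ^ (-j * b) := by rw [← hb, ← cj_pow, e3, zpow_mul, zpow_natCast]
      have := inv_eq K (j := -j * b) (by
        rw [← e4]; simpa using K.z1) (by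
        rw [← e4]
        calc τ * z * τ⁻¹ * (τ * z * τ⁻¹) = τ * (z * z) * τ⁻¹ := by group
          _ = 1 := by rw [K.z2]; group)
      exact absurd (mul_inv_eq_iff_eq_mul.1 (e4.trans this)) hz
  have g1 : ∀ d ∈ closure ({w, v} : Set G), ∀ d' ∈ closure ({w, v} : Set G),
      Commute d (τ * d' * τ⁻¹) := by
    intro d hd d' hd'
    refine closure_induction₂ (p := fun d d' _ _ => Commute d (τ * d' * τ⁻¹))
      (fun x y hx hy => g0 x hx y hy) (by simp) (by simp)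
      (fun _ _ _ _ _ _ a b => a.mul_left b) (fun y y' x _ _ _ a b => ?_) (fun _ _ _ _ a => a.inv_left)
      (fun x y _ _ a => ?_) hd hd'
    · rw [show τ * (y * y') * τ⁻¹ = τ * y * τ⁻¹ * (τ * y' * τ⁻¹) by group]
      exact a.mul_right b
    · rw [show τ * y⁻¹ * τ⁻¹ = (τ * y * τ⁻¹)⁻¹ by group]
      exact a.inv_right
  have DR : closure ({w, v} : Set G) ≤ R := (closure_le _).2 gR
  obtain ⟨u, hu, d₁, hd₁, e⟩ := K.act _ (h1 h6)
  have uD : ∀ d ∈ closure ({w, v} : Set G), Commute u d := fun d hd =>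
    (mem_centralizer_singleton_iff.1 ((closure_le (centralizer {u})).2 (by
      rintro d (rfl | rfl)
      · exact mem_centralizer_singleton_iff.2 (S.cw u hu).symm
      · exact mem_centralizer_singleton_iff.2 (S.cv u hu).symm) hd)).symm
  have hs : τ * d₁⁻¹ ∈ T' := mul_mem h3 (inv_mem (h2 (DR hd₁)))
  have key : ∀ d ∈ closure ({w, v} : Set G), Commute (τ * d₁⁻¹) (d ^ n) := fun d hd => by
    refine L1 ?_ ?_ (h4 _ (h2 (DR hd))) (h4 _ hs) (h4 _ (mul_mem (h2 (DR hd)) hs))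
    · rw [show τ * d₁⁻¹ * d * (τ * d₁⁻¹)⁻¹ = τ * (d₁⁻¹ * d * d₁) * τ⁻¹ by group]
      exact g1 d hd _ (mul_mem (mul_mem (inv_mem hd₁) hd) hd₁)
    · rw [show τ * d₁⁻¹ * (τ * d₁⁻¹) = τ * d₁⁻¹ * τ⁻¹ * (τ * τ * d₁⁻¹) by group, e,
        mul_inv_cancel_right]
      exact (g1 d hd _ (inv_mem hd₁)).symm.mul_left (uD d hd)
  have mw : w ∈ closure ({w, v} : Set G) := subset_closure (by simp)
  have mv : v ∈ closure ({w, v} : Set G) := subset_closure (by simp)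
  have k1 := key w mw
  have k2 := key _ (mul_mem mw mv)
  have e2 : (w * v) ^ n = w ^ n * z := by
    obtain ⟨m, hm⟩ := H.ev
    have := K.zi 1
    rw [pow_one, pow_one] at this
    rw [← K.zn, ← this, ← pow_mul, hm, pow_succ, Nat.mul_div_cancel _ two_pos, mul_comm]
  rw [e2] at k2
  have k3 : Commute (τ * d₁⁻¹) z := by simpa using k1.inv_right.mul_right k2
  exact hz (by simpa using k3.mul_left (K.zc.2 d₁ (h1 (DR hd₁))))

theorem jobS5 : JobS5.{u} := by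
  intro G _ _ T U₁ n w v c z H S K N4
  have burn : ∀ y, Cen T y → IsConj z y → y = z := fun y hy e => by
    obtain ⟨h, h1, h2⟩ := (H.cen z K.zc).2 y hy.1 e.symm
    have hn : h ∈ normalizer (T : Set G) := mem_normalizer_fintype fun s hs => h2 s hs (hy.2 s hs)
    rw [← N4 _ (inv_mem hn), ← h1]
    group
  by_contra! hne
  obtain ⟨t, ⟨ht, e, h0⟩, mx⟩ := Set.exists_max_image {t | t ∈ U0 T w v ∧ IsConj z t ∧ t ≠ z}
    (fun t => Nat.card ↥(T ⊓ centralizer ({t} : Set G))) (Set.toFinite _)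
    (hne.imp fun t h => h)
  obtain ⟨h, h1, h2⟩ := (H.cen z K.zc).2 t ht.1 e.symm
  set R := T ⊓ centralizer ({t} : Set G) with hR
  have mR : ∀ s ∈ R, h * s * h⁻¹ ∈ T := fun s hs =>
    h2 s hs.1 (mem_centralizer_singleton_iff.1 hs.2)
  have hw : w ∈ R := ⟨S.wT, mem_centralizer_singleton_iff.2 (ht.2 w (by simp))⟩
  have hv : v ∈ R := ⟨S.vT, mem_centralizer_singleton_iff.2 (ht.2 v (by simp))⟩
  have hz : z ∈ R := ⟨K.zc.1, mem_centralizer_singleton_iff.2 (K.zc.2 t ht.1).symm⟩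
  have c1 : Commute (h * z * h⁻¹) w := by
    have := br_cm K.br (mR w hw) (mR v hv)
    rw [show (h * w * h⁻¹)⁻¹ * (h * v * h⁻¹) * (h * w * h⁻¹) * (h * v * h⁻¹)⁻¹ =
      h * (w⁻¹ * (v * w * v⁻¹)) * h⁻¹ by group, S.vw, inv_mul_cancel_left] at this
    rw [S.zc, ← cj_pow]
    exact this.pow_left _
  have t2 : h * z * h⁻¹ * (h * z * h⁻¹) = 1 := by
    rw [show h * z * h⁻¹ * (h * z * h⁻¹) = h * (z * z) * h⁻¹ by group, K.z2]; group
  have t0 : h * z * h⁻¹ ≠ z := fun k => h0 (by simpa using h1.trans k.symm)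
  have tc : IsConj z (h * z * h⁻¹) := isConj_iff.2 ⟨h, rfl⟩
  have le : R.map (MulAut.conj h).toMonoidHom ≤ T ⊓ centralizer {h * z * h⁻¹} := by
    rintro _ ⟨s, hs, rfl⟩
    refine ⟨mR s hs, mem_centralizer_singleton_iff.2 ?_⟩
    show h * s * h⁻¹ * (h * z * h⁻¹) = h * z * h⁻¹ * (h * s * h⁻¹)
    calc h * s * h⁻¹ * (h * z * h⁻¹) = h * (s * z) * h⁻¹ := by group
      _ = _ := by rw [(K.zc.2 s hs.1).eq]; group
  have eq := eq_of_le_of_card_ge le (by
    rw [card_map_of_injective (MulAut.conj h).injective]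
    exact mx _ ⟨K.iv _ (mR z hz) t2 c1, tc, t0⟩)
  have mem : ∀ s, s ∈ R ↔ h * s * h⁻¹ ∈ T ⊓ centralizer {h * z * h⁻¹} := fun s => by
    rw [← eq]
    exact (mem_map_iff_mem (f := (MulAut.conj h).toMonoidHom) (MulAut.conj h).injective).symm
  obtain ⟨σ, s1, s2, s3, s4⟩ := ex_sig (U := T ⊓ centralizer {h * z * h⁻¹}) H.pg inf_le_left (by
    by_contra! k
    exact t0 (burn _ ⟨mR z hz, fun s hs => mem_centralizer_singleton_iff.1 (k s hs).2⟩ tc))
  have := core H S K (R := R) (T' := T.comap (MulAut.conj h).toMonoidHom) (τ := h⁻¹ * σ * h)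
    inf_le_left mR (by simpa [mul_assoc] using s1) (fun x hx => by
      have := H.ex _ hx
      simpa using this) hw hv (mem_normalizer_iff.2 fun x => by
      rw [mem, mem, mem_normalizer_iff.1 s2,
        show h * (h⁻¹ * σ * h * x * (h⁻¹ * σ * h)⁻¹) * h⁻¹ = σ * (h * x * h⁻¹) * σ⁻¹ by group])
    (by rw [mem, show h * (h⁻¹ * σ * h * (h⁻¹ * σ * h)) * h⁻¹ = σ * σ by group]; exact s4)
  refine s3 ⟨s1, mem_centralizer_singleton_iff.2 ?_⟩
  calc σ * (h * z * h⁻¹) = h * (h⁻¹ * σ * h * z) * h⁻¹ := by group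
    _ = _ := by rw [this.eq]; group

end H1.SQS5
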