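import Cfsg.Agent.H11.SimDSpec

/-! # S3694, tower SIM, chapter D: slot D2b -/

set_option autoImplicit false

namespace H1.SimD2b

open Subgroup Cfsg H98 Matrix H0.Sim H11.SimD

theorem jobD_D2b : JobD2b := by
  intro hf ue uq n F _ _ q W₁ W₂ X hc hp h1 hX1 hX2 hX
  obtain ⟨-, -, hs, hl, -, ⟨c, c0, cc⟩, -, -, hy⟩ := hf n F q hc
  have q0 : q ≠ 0 := by
    rintro rfl
    have := Fintype.one_lt_card (α := F)
    simp [hc] at this
  have z1 : ∀ z : Fin n → F, hermForm n F q 0 z = 0 := fun z => by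
    have := (hl 0 0 0 z).2.2.1
    rwa [zero_smul, zero_mul] at this
  have z2 : ∀ z : Fin n → F, hermForm n F q z 0 = 0 := fun z => by rw [hs, z1, zero_pow q0]
  have ex : ∀ {a : F} {y : Fin n → F}, a ≠ 0 → a • y ∈ X → y ∈ X := fun {a y} ha h =>
    (X.smul_mem_iff ha).1 h
  have key : ∀ y ∈ W₂, y ∉ X → ∀ x ∈ X, hermForm n F q x y = 0 := by
    intro y hy2 hyX x hx
    by_contra hne
    apply hyX
    by_cases h0 : hermForm n F q y y = 0
    · obtain ⟨s, hS, e⟩ := ue n F q hc y 0 c h0 (z1 y) (by rw [cc, z1])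
      simp only [z2, zero_smul, add_zero, smul_zero, sub_zero] at e
      have s1 : Sb s W₁ := fun v hv => by
        rw [e, hs, (hp y).1 hy2 v hv, zero_pow q0, mul_zero, zero_smul, sub_zero]; exact hv
      have s2 : Sb s W₂ := fun v hv => by
        rw [e]; exact W₂.sub_mem hv (W₂.smul_mem _ hy2)
      have := X.sub_mem hx (hX s hS s1 s2 x hx)
      rw [e, sub_sub_cancel] at this
      exact ex (mul_ne_zero c0 hne) this
    · obtain ⟨s, hS, s1, s2, a, a0, e⟩ := uq n F q hc W₁ W₂ y h1 (hX1.trans hX2) hp hy2 h0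
      have := X.sub_mem (X.sub_mem (hX s hS s1 s2 x hx) hx) (hX1 (e x (hX2 hx)))
      rw [sub_sub_cancel] at this
      exact ex (mul_ne_zero a0 hne) this
  by_cases h : W₂ ≤ X
  · exact Or.inr (le_antisymm hX2 h)
  obtain ⟨y0, hy0, hy0X⟩ := SetLike.not_le_iff_exists.1 h
  have all : ∀ y ∈ W₂, ∀ x ∈ X, hermForm n F q x y = 0 := by
    intro y hy2 x hx
    by_cases hyX : y ∈ X
    · have := key (y + y0) (W₂.add_mem hy2 hy0) (fun k => hy0X ((X.add_mem_iff_right hyX).1 k)) x hx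
      rwa [(hl 0 y y0 x).2.1, key y0 hy0 hy0X x hx, add_zero] at this
    · exact key y hy2 hyX x hx
  refine Or.inl (le_antisymm (fun x hx => ?_) hX1)
  by_contra hx1
  obtain ⟨y, e1, e2⟩ := hy W₁ x hx1
  have hy2 : y ∈ W₂ := (hp y).2 fun w hw => by rw [hs, e2 w hw, zero_pow q0]
  exact one_ne_zero (e1.symm.trans (all y hy2 x hx))

end H1.SimD2b
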