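import Cfsg.Agent.H42.SimXBSpec

/-! # S3694, tower SIM: slot Ga -/

set_option autoImplicit false

namespace H1.SimGa

open Matrix H0.Sim H42.SX

theorem jobGa : JobGa := by
  intro n F K _ _ _ _ ι b hn hb
  have : Nonempty (Fin n) := ⟨⟨0, hn⟩⟩
  have inj : Function.Injective ι := ι.toRingHom.injective
  have ex : ∀ k : K, ∃ k' : K,
      ι k' = (b : Mt n F) * ι k * ((b⁻¹ : GL (Fin n) F) : Mt n F) := fun k => hb _ ⟨k, rfl⟩
  choose f hf using ex
  have e1 : (b : Mt n F) * ((b⁻¹ : GL (Fin n) F) : Mt n F) = 1 := Units.mul_inv b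
  have e2 : ((b⁻¹ : GL (Fin n) F) : Mt n F) * (b : Mt n F) = 1 := Units.inv_mul b
  let g : K →ₐ[F] K :=
    { toFun := f
      map_one' := inj (by rw [hf, map_one, mul_one, e1])
      map_mul' := fun x y => inj (by
        rw [hf, map_mul, map_mul, hf, hf]
        simp only [mul_assoc]
        rw [← mul_assoc ((b⁻¹ : GL (Fin n) F) : Mt n F), e2, one_mul])
      map_zero' := inj (by rw [hf, map_zero, mul_zero, zero_mul])
      map_add' := fun x y => inj (by rw [hf, map_add, map_add, hf, hf, mul_add, add_mul])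
      commutes' := fun c => inj (by
        rw [hf, ι.commutes, ← Algebra.commutes, mul_assoc, e1, mul_one]) }
  exact ⟨AlgEquiv.ofBijective g (Finite.injective_iff_bijective.1 g.toRingHom.injective), hf⟩

end H1.SimGa
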